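import Mathlib
import Cfsg.Agent.Lib.Helper18.SLMDefs

/-!
Project SLM (S2332, helper18), piece DIRSUM: the space of a representation of `SL_{k+1}(F)` is the
internal direct sum of the weight spaces `wt ψ ρ l` of the abelian group `{x1 u}` (`ψ` a
non-trivial additive character of the finite field `F`).  Proof with the projections
`e_l = |F^k|⁻¹ ∑_u ψ(-(l·u)) ρ(x1 u)`.
-/

set_option autoImplicit false

namespace Cfsg.Agent.Lib.Helper18.SLM

open Matrix

universe u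

variable {F : Type u} [Field F] [Fintype F]

theorem dirsum_x1_add {k : ℕ} (u v : Fin k → F) :
    (x1 (u + v) : Matrix.SpecialLinearGroup (Fin (k + 1)) F) = x1 u * x1 v := by
  apply Subtype.ext
  show x1m (u + v) = x1m u * x1m v
  unfold x1m
  have h1 : (Fin.cons 0 (u + v) : Fin (k + 1) → F) = Fin.cons 0 u + Fin.cons 0 v := by
    funext i
    refine Fin.cases ?_ (fun i' => ?_) i <;> simp
  have h2 : (Fin.cons 0 u : Fin (k + 1) → F) ⬝ᵥ (Pi.single 0 1) = 0 := by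
    simp
  rw [Matrix.add_mul, Matrix.mul_add, Matrix.mul_add, Matrix.one_mul, Matrix.mul_one,
    Matrix.one_mul, Matrix.vecMulVec_mul_vecMulVec, h2, h1, Matrix.vecMulVec_add, zero_smul]
  have h3 : vecMulVec (Pi.single (0 : Fin (k + 1)) (1 : F)) (0 : Fin (k + 1) → F) = 0 := by
    ext i j
    simp [vecMulVec_apply]
  rw [h3, add_zero]
  abel

theorem dirsum_x1_zero {k : ℕ} :
    (x1 (0 : Fin k → F) : Matrix.SpecialLinearGroup (Fin (k + 1)) F) = 1 := by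
  have h := dirsum_x1_add (0 : Fin k → F) 0
  rw [add_zero] at h
  exact (mul_eq_left.mp h.symm)

open Classical in
/-- orthogonality: `∑ u, ψ (c ⬝ᵥ u)` is `|F^k|` if `c = 0` and `0` otherwise -/
theorem dirsum_sum (ψ : AddChar F ℂ) (hψ : ψ ≠ 1) {k : ℕ} (c : Fin k → F) :
    ∑ u : Fin k → F, ψ (c ⬝ᵥ u) = if c = 0 then (Fintype.card (Fin k → F) : ℂ) else 0 := by
  split_ifs with hc
  · subst hc
    simp
  · let f : (Fin k → F) →+ F :=
      AddMonoidHom.mk' (fun u => c ⬝ᵥ u) (fun a b => dotProduct_add c a b)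
    have hχ : ψ.compAddMonoidHom f ≠ 1 := by
      obtain ⟨a, ha⟩ := AddChar.ne_one_iff.1 hψ
      obtain ⟨j, hj⟩ : ∃ j, c j ≠ 0 := by
        by_contra hcon
        push Not at hcon
        exact hc (funext hcon)
      rw [AddChar.ne_one_iff]
      refine ⟨Pi.single j (a / c j), ?_⟩
      have h1 : f (Pi.single j (a / c j)) = a := by
        show c ⬝ᵥ Pi.single j (a / c j) = a
        rw [dotProduct_single]
        field_simp
      rw [AddChar.compAddMonoidHom_apply, h1]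
      exact ha
    exact AddChar.sum_eq_zero_of_ne_one hχ

section rep

variable {V : Type*} [AddCommGroup V] [Module ℂ V]

/-- the projection onto the weight space `wt ψ ρ l` -/
noncomputable def dirsum_e (ψ : AddChar F ℂ) {k : ℕ}
    (ρ : Representation ℂ (Matrix.SpecialLinearGroup (Fin (k + 1)) F) V) (l : Fin k → F) :
    V →ₗ[ℂ] V :=
  ((Fintype.card (Fin k → F) : ℂ))⁻¹ • ∑ u : Fin k → F, ψ (-(l ⬝ᵥ u)) • ρ (x1 u)

theorem dirsum_e_apply (ψ : AddChar F ℂ) {k : ℕ}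
    (ρ : Representation ℂ (Matrix.SpecialLinearGroup (Fin (k + 1)) F) V) (l : Fin k → F) (v : V) :
    dirsum_e ψ ρ l v =
      ((Fintype.card (Fin k → F) : ℂ))⁻¹ • ∑ u : Fin k → F, ψ (-(l ⬝ᵥ u)) • ρ (x1 u) v := by
  unfold dirsum_e
  rw [LinearMap.smul_apply, LinearMap.sum_apply]
  rfl

theorem dirsum_card_ne {k : ℕ} : ((Fintype.card (Fin k → F) : ℂ)) ≠ 0 := by
  exact_mod_cast Fintype.card_ne_zero

theorem dirsum_e_mem (ψ : AddChar F ℂ) {k : ℕ}
    (ρ : Representation ℂ (Matrix.SpecialLinearGroup (Fin (k + 1)) F) V) (l : Fin k → F) (v : V) :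
    dirsum_e ψ ρ l v ∈ wt ψ ρ l := by
  rw [mem_wt]
  intro w
  rw [dirsum_e_apply]
  have hL : ρ (x1 w) (((Fintype.card (Fin k → F) : ℂ))⁻¹ •
      ∑ u : Fin k → F, ψ (-(l ⬝ᵥ u)) • ρ (x1 u) v) =
      ((Fintype.card (Fin k → F) : ℂ))⁻¹ •
        ∑ u : Fin k → F, ψ (-(l ⬝ᵥ u)) • ρ (x1 (w + u)) v := by
    rw [map_smul, map_sum]
    congr 1
    refine Finset.sum_congr rfl (fun u _ => ?_)
    rw [map_smul, dirsum_x1_add, map_mul]
    rfl
  have hR : ψ (l ⬝ᵥ w) • (((Fintype.card (Fin k → F) : ℂ))⁻¹ •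
      ∑ u : Fin k → F, ψ (-(l ⬝ᵥ u)) • ρ (x1 u) v) =
      ((Fintype.card (Fin k → F) : ℂ))⁻¹ •
        ∑ u : Fin k → F, ψ (-(l ⬝ᵥ u)) • ρ (x1 (w + u)) v := by
    rw [smul_comm, Finset.smul_sum]
    congr 1
    have h1 : ∑ u : Fin k → F, ψ (l ⬝ᵥ w) • ψ (-(l ⬝ᵥ u)) • ρ (x1 u) v =
        ∑ u : Fin k → F, ψ (l ⬝ᵥ w) • ψ (-(l ⬝ᵥ (w + u))) • ρ (x1 (w + u)) v :=
      (Fintype.sum_equiv (Equiv.addLeft w) _ _ (fun u => rfl)).symm
    rw [h1]
    refine Finset.sum_congr rfl (fun u _ => ?_)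
    rw [smul_smul, ← AddChar.map_add_eq_mul]
    have h2 : l ⬝ᵥ w + -(l ⬝ᵥ (w + u)) = -(l ⬝ᵥ u) := by
      rw [dotProduct_add]
      ring
    rw [h2]
  rw [hL, hR]

open Classical in
theorem dirsum_e_wt (ψ : AddChar F ℂ) (hψ : ψ ≠ 1) {k : ℕ}
    (ρ : Representation ℂ (Matrix.SpecialLinearGroup (Fin (k + 1)) F) V) (l l' : Fin k → F)
    (v : V) (hv : v ∈ wt ψ ρ l') : dirsum_e ψ ρ l v = if l = l' then v else 0 := by
  rw [dirsum_e_apply]
  have h1 : ∑ u : Fin k → F, ψ (-(l ⬝ᵥ u)) • ρ (x1 u) v =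
      (∑ u : Fin k → F, ψ ((l' - l) ⬝ᵥ u)) • v := by
    rw [Finset.sum_smul]
    refine Finset.sum_congr rfl (fun u _ => ?_)
    rw [(mem_wt ψ ρ l' v).mp hv u, smul_smul, ← AddChar.map_add_eq_mul]
    have h2 : -(l ⬝ᵥ u) + l' ⬝ᵥ u = (l' - l) ⬝ᵥ u := by
      rw [sub_dotProduct]
      ring
    rw [h2]
  rw [h1, dirsum_sum ψ hψ]
  by_cases h : l = l'
  · subst h
    rw [if_pos (sub_self l), if_pos rfl, smul_smul, inv_mul_cancel₀ dirsum_card_ne, one_smul]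
  · rw [if_neg (fun h' => h (sub_eq_zero.mp h').symm), if_neg h, zero_smul, smul_zero]

theorem dirsum_e_sum (ψ : AddChar F ℂ) (hψ : ψ ≠ 1) {k : ℕ}
    (ρ : Representation ℂ (Matrix.SpecialLinearGroup (Fin (k + 1)) F) V) (v : V) :
    ∑ l : Fin k → F, dirsum_e ψ ρ l v = v := by
  classical
  have h1 : ∑ l : Fin k → F, dirsum_e ψ ρ l v =
      ((Fintype.card (Fin k → F) : ℂ))⁻¹ •
        ∑ u : Fin k → F, (∑ l : Fin k → F, ψ ((-u) ⬝ᵥ l)) • ρ (x1 u) v := by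
    simp_rw [dirsum_e_apply]
    rw [← Finset.smul_sum, Finset.sum_comm]
    congr 1
    refine Finset.sum_congr rfl (fun u _ => ?_)
    rw [Finset.sum_smul]
    refine Finset.sum_congr rfl (fun l _ => ?_)
    rw [neg_dotProduct, dotProduct_comm]
  rw [h1]
  have h2 : ∑ u : Fin k → F, (∑ l : Fin k → F, ψ ((-u) ⬝ᵥ l)) • ρ (x1 u) v =
      (Fintype.card (Fin k → F) : ℂ) • v := by
    rw [Finset.sum_eq_single (0 : Fin k → F)]
    · rw [dirsum_sum ψ hψ, if_pos neg_zero, dirsum_x1_zero, map_one]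
      rfl
    · intro u _ hu
      rw [dirsum_sum ψ hψ, if_neg (fun h => hu (neg_eq_zero.mp h)), zero_smul]
    · intro h
      exact absurd (Finset.mem_univ _) h
  rw [h2, smul_smul, inv_mul_cancel₀ dirsum_card_ne, one_smul]

end rep

-- piece DIRSUM
open Classical in
theorem wt_isInternal {V : Type*} [AddCommGroup V] [Module ℂ V] [FiniteDimensional ℂ V]
    (ψ : AddChar F ℂ) (hψ : ψ ≠ 1) {k : ℕ}
    (ρ : Representation ℂ (Matrix.SpecialLinearGroup (Fin (k + 1)) F) V) :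
    DirectSum.IsInternal (fun l : Fin k → F => wt ψ ρ l) := by
  apply DirectSum.isInternal_submodule_of_iSupIndep_of_iSup_eq_top
  · rw [iSupIndep_def]
    intro l
    rw [Submodule.disjoint_def]
    intro v hv hv'
    have h1 : dirsum_e ψ ρ l v = v := by rw [dirsum_e_wt ψ hψ ρ l l v hv, if_pos rfl]
    have h2 : (⨆ (j) (_ : j ≠ l), wt ψ ρ j) ≤ LinearMap.ker (dirsum_e ψ ρ l) := by
      refine iSup₂_le (fun j hj => ?_)
      intro w hw
      rw [LinearMap.mem_ker, dirsum_e_wt ψ hψ ρ l j w hw, if_neg (Ne.symm hj)]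
    rw [← h1]
    exact LinearMap.mem_ker.mp (h2 hv')
  · rw [eq_top_iff]
    intro v _
    rw [← dirsum_e_sum ψ hψ ρ v]
    exact Submodule.sum_mem _ (fun l _ => Submodule.mem_iSup_of_mem l (dirsum_e_mem ψ ρ l v))

end Cfsg.Agent.Lib.Helper18.SLM
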