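import Mathlib
import Cfsg.Agent.Lib.Helper18.LSDefs
import Cfsg.Agent.Lib.Helper18.WRDefs

/-!
Project WR (S2347, helper18), piece SVN: a Stone-von Neumann type statement.  An additive
automorphism `γ` preserving the cocycle of a basis of Weyl operators is implemented by an
invertible operator (the induced algebra automorphism of the endomorphism algebra is inner).
-/

set_option autoImplicit false

namespace Cfsg.Agent.Lib.Helper18.WR

open Matrix

universe u

variable {F : Type u} [Field F] {n : ℕ}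

-- piece SVN
theorem weyl_svn {E V : Type*} [AddCommGroup E] [Module ℂ E] [FiniteDimensional ℂ E]
    [AddCommGroup V] [Finite V] (W : V → Module.End ℂ E) (c : V → V → ℂ) (h0 : W 0 = 1)
    (hmul : ∀ u v, W u * W v = c u v • W (u + v)) (hli : LinearIndependent ℂ W)
    (hspan : Submodule.span ℂ (Set.range W) = ⊤) (γ : V ≃+ V)
    (hγ : ∀ u v, c (γ u) (γ v) = c u v) :
    ∃ A : (Module.End ℂ E)ˣ,
      ∀ v, (A : Module.End ℂ E) * W v = W (γ v) * (A : Module.End ℂ E) := by
  classical
  set b : Module.Basis V ℂ (Module.End ℂ E) := Module.Basis.mk hli hspan.ge with hb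
  have hbW : ∀ v, b v = W v := fun v => by rw [hb, Module.Basis.mk_apply]
  set Φ : Module.End ℂ E ≃ₗ[ℂ] Module.End ℂ E := b.equiv b γ.toEquiv with hΦ
  have hΦW : ∀ v, Φ (W v) = W (γ v) := by
    intro v
    rw [← hbW v, hΦ, Module.Basis.equiv_apply, hbW]
    rfl
  have hΦ1 : Φ 1 = 1 := by
    rw [← h0, hΦW, map_zero]
  have hΦmul : ∀ x y, Φ (x * y) = Φ x * Φ y := by
    have key : (LinearMap.mul ℂ (Module.End ℂ E)).compr₂ Φ.toLinearMap =
        (LinearMap.mul ℂ (Module.End ℂ E)).compl₁₂ Φ.toLinearMap Φ.toLinearMap := by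
      refine b.ext (fun u => b.ext (fun v => ?_))
      simp only [LinearMap.compr₂_apply, LinearMap.compl₁₂_apply, LinearMap.mul_apply',
        LinearEquiv.coe_coe]
      rw [hbW, hbW, hmul, map_smul, hΦW, hΦW, hΦW, hmul, hγ, map_add]
    intro x y
    have h1 := congrArg (fun L => L x y) key
    simpa using h1
  obtain ⟨T, hT⟩ := (AlgEquiv.ofLinearEquiv Φ hΦ1 hΦmul).eq_linearEquivConjAlgEquiv
  refine ⟨⟨T.toLinearMap, T.symm.toLinearMap, ?_, ?_⟩, fun v => ?_⟩
  · ext x
    simp
  · ext x
    simp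
  · have h1 : Φ (W v) = T.toLinearMap ∘ₗ W v ∘ₗ T.symm.toLinearMap := by
      have h2 := congrArg (fun f => f (W v)) hT
      simpa [LinearEquiv.conjAlgEquiv_apply] using h2
    rw [hΦW] at h1
    rw [h1]
    ext x
    simp

end Cfsg.Agent.Lib.Helper18.WR
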