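import Cfsg.Agent.Lib.Helper41.TW5
import Cfsg.Agent.Lib.Helper41.TW6
import Cfsg.Agent.Lib.Helper41.PSub

set_option autoImplicit false

namespace Cfsg.Agent.Lib.Helper86.WBP

open Cfsg Cfsg.Agent.Lib.Helper66 Cfsg.Agent.Lib.Helper41 Cfsg.Agent.Lib.Helper41.TW

theorem relIndex_symm_of_card {G : Type*} [Group G] [Finite G] (X Y : Subgroup G)
    (h : Nat.card X = Nat.card Y) : X.relIndex Y = Y.relIndex X := by
  have h1 : Nat.card ↥(X ⊓ Y) * (X ⊓ Y).relIndex Y = Nat.card Y := by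
    have := Subgroup.relIndex_mul_relIndex ⊥ (X ⊓ Y) Y bot_le inf_le_right
    rwa [Subgroup.relIndex_bot_left, Subgroup.relIndex_bot_left] at this
  have h2 : Nat.card ↥(X ⊓ Y) * (X ⊓ Y).relIndex X = Nat.card X := by
    have := Subgroup.relIndex_mul_relIndex ⊥ (X ⊓ Y) X bot_le inf_le_left
    rwa [Subgroup.relIndex_bot_left, Subgroup.relIndex_bot_left] at this
  rw [Subgroup.inf_relIndex_right] at h1
  rw [Subgroup.inf_relIndex_left] at h2
  have hpos : 0 < Nat.card ↥(X ⊓ Y) := Nat.card_pos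
  apply Nat.eq_of_mul_eq_mul_left hpos
  rw [h1, h2, h]

end Cfsg.Agent.Lib.Helper86.WBP
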