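import Cfsg.Agent.Lib.Helper86.BSWDFAMAux
import Cfsg.Agent.Lib.Helper90.BSWAB
import Cfsg.Agent.Lib.Helper35.BSWIND

/-!
# S3282, piece DFAM: the characters of degree `q + 1` (case `δ = -1`)
-/

set_option autoImplicit false

namespace Cfsg.Agent.Lib.Helper46.BSW

open Cfsg Cfsg.Agent.Lib.Helper4
open scoped ComplexConjugate

universe u

variable {G : Type u} [Group G]

theorem dseries_exists [Fintype G] [Fintype (IrrCharacter G)] (K : Subgroup G)
    (Δ : IrrCharacter G) (hΔ : Δ ≠ trivIrr)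
    (hdeg : (Δ : G → ℂ) 1 = 2 * (Nat.card K : ℂ) - 1) (M : Subgroup G) (u : G)
    (hT : TorusData K Δ M u) [Fintype (IrrCharacter M)] :
    ∃ Y : IrrCharacter M → IrrCharacter G, DSeries K Δ M Y := by
  have hMab : ∀ a b : ↥M, a * b = b * a := fun a b => Subtype.ext (hT.hab a a.2 b b.2)
  exact Cfsg.Agent.Lib.Helper86.BSWDFAM.dseries_of K Δ hΔ hdeg M u hT
    (indData_exists M hT.hab u hT.hinv hT.huM (Cfsg.Agent.Lib.Helper86.BSWDFAM.torus_hTI hT))
    (fun x hx => ab_sum hMab x hx) (fun β h0 h => ab_indep hMab β h0 h) (ab_real hMab) cbar_triv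

end Cfsg.Agent.Lib.Helper46.BSW
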