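import Mathlib

/-! Project QB (helper48, S2359), piece INTERALL (helper86): transport of the centralizer of
`{y, v}` to the centralizer of `{y', J}` by conjugation. -/

set_option autoImplicit false

namespace Cfsg.Agent.Lib.Helper48.QB

theorem interall_conj_mem {G : Type*} [Group G] (g y v c : G) :
    c ∈ Subgroup.centralizer ({y, v} : Set G) ↔
      g * c * g⁻¹ ∈ Subgroup.centralizer ({g * y * g⁻¹, g * v * g⁻¹} : Set G) := by
  simp only [Subgroup.mem_centralizer_iff, Set.mem_insert_iff, Set.mem_singleton_iff,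
    forall_eq_or_imp, forall_eq]
  constructor
  · rintro ⟨h1, h2⟩
    constructor
    · calc g * y * g⁻¹ * (g * c * g⁻¹) = g * (y * c) * g⁻¹ := by group
        _ = g * (c * y) * g⁻¹ := by rw [h1]
        _ = g * c * g⁻¹ * (g * y * g⁻¹) := by group
    · calc g * v * g⁻¹ * (g * c * g⁻¹) = g * (v * c) * g⁻¹ := by group
        _ = g * (c * v) * g⁻¹ := by rw [h2]
        _ = g * c * g⁻¹ * (g * v * g⁻¹) := by group
  · rintro ⟨h1, h2⟩
    constructor
    · have h : g * (y * c) * g⁻¹ = g * (c * y) * g⁻¹ := by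
        calc g * (y * c) * g⁻¹ = g * y * g⁻¹ * (g * c * g⁻¹) := by group
          _ = g * c * g⁻¹ * (g * y * g⁻¹) := h1
          _ = g * (c * y) * g⁻¹ := by group
      exact mul_left_cancel (mul_right_cancel h)
    · have h : g * (v * c) * g⁻¹ = g * (c * v) * g⁻¹ := by
        calc g * (v * c) * g⁻¹ = g * v * g⁻¹ * (g * c * g⁻¹) := by group
          _ = g * c * g⁻¹ * (g * v * g⁻¹) := h2
          _ = g * (c * v) * g⁻¹ := by group
      exact mul_left_cancel (mul_right_cancel h)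

-- QB-INTERALL
theorem inter_all {G : Type*} [Group G] (J : G) (r N : ℕ)
    (hinvconj : ∀ a : G, a ≠ 1 → a * a = 1 → ∃ g : G, g * a * g⁻¹ = J)
    (hJ : ∀ y : G, orderOf y = r → J * y = y * J →
      Nat.card (Subgroup.centralizer ({y, J} : Set G)) = N ∧
      ∀ a ∈ Subgroup.centralizer ({y, J} : Set G), ∀ b ∈ Subgroup.centralizer ({y, J} : Set G),
        a * b = b * a)
    (y v : G) (hy : orderOf y = r) (hv1 : v ≠ 1) (hv2 : v * v = 1) (hvy : v * y = y * v) :
    Nat.card (Subgroup.centralizer ({y, v} : Set G)) = N ∧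
      ∀ a ∈ Subgroup.centralizer ({y, v} : Set G), ∀ b ∈ Subgroup.centralizer ({y, v} : Set G),
        a * b = b * a := by
  obtain ⟨g, hg⟩ := hinvconj v hv1 hv2
  have hmem : ∀ c : G, c ∈ Subgroup.centralizer ({y, v} : Set G) ↔
      g * c * g⁻¹ ∈ Subgroup.centralizer ({g * y * g⁻¹, J} : Set G) := by
    intro c
    rw [← hg]
    exact interall_conj_mem g y v c
  have hord : orderOf (g * y * g⁻¹) = r := by
    have h := (MulAut.conj g).orderOf_eq y
    rw [MulAut.conj_apply] at h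
    rw [h, hy]
  have hcomm : J * (g * y * g⁻¹) = g * y * g⁻¹ * J := by
    rw [← hg]
    calc g * v * g⁻¹ * (g * y * g⁻¹) = g * (v * y) * g⁻¹ := by group
      _ = g * (y * v) * g⁻¹ := by rw [hvy]
      _ = g * y * g⁻¹ * (g * v * g⁻¹) := by group
  obtain ⟨hN, hab⟩ := hJ (g * y * g⁻¹) hord hcomm
  have hcard : Nat.card (Subgroup.centralizer ({y, v} : Set G)) =
      Nat.card (Subgroup.centralizer ({g * y * g⁻¹, J} : Set G)) := by
    apply Nat.card_congr
    refine ⟨fun c => ⟨g * c.1 * g⁻¹, (hmem c.1).1 c.2⟩, fun d => ⟨g⁻¹ * d.1 * g, ?_⟩, ?_, ?_⟩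
    · rw [hmem]
      have h : g * (g⁻¹ * d.1 * g) * g⁻¹ = d.1 := by group
      rw [h]
      exact d.2
    · intro c
      apply Subtype.ext
      show g⁻¹ * (g * c.1 * g⁻¹) * g = c.1
      group
    · intro d
      apply Subtype.ext
      show g * (g⁻¹ * d.1 * g) * g⁻¹ = d.1
      group
  refine ⟨hcard.trans hN, fun a ha b hb => ?_⟩
  have h := hab (g * a * g⁻¹) ((hmem a).1 ha) (g * b * g⁻¹) ((hmem b).1 hb)
  have h' : g * (a * b) * g⁻¹ = g * (b * a) * g⁻¹ := by
    calc g * (a * b) * g⁻¹ = g * a * g⁻¹ * (g * b * g⁻¹) := by group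
      _ = g * b * g⁻¹ * (g * a * g⁻¹) := h
      _ = g * (b * a) * g⁻¹ := by group
  exact mul_left_cancel (mul_right_cancel h')

end Cfsg.Agent.Lib.Helper48.QB
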