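import Mathlib

set_option autoImplicit false

namespace Cfsg.Agent.Lib.Helper86.TwoPr

open Equiv Equiv.Perm MulAction
open scoped Pointwise

/-- TP-WS -/
theorem sylow_conj_in {G : Type*} [Group G] [Finite G] {p : ℕ} [Fact p.Prime]
    (U T T' : Subgroup G) (hT : T ≤ U) (hT' : T' ≤ U) (hTp : IsPGroup p T)
    (hcard : Nat.card T' = Nat.card T) (hsyl : ¬ p ∣ Nat.card U / Nat.card T) :
    ∃ h ∈ U, ∀ x, x ∈ T' ↔ h * x * h⁻¹ ∈ T := by
  obtain ⟨n, hn⟩ := IsPGroup.iff_card.mp hTp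
  have hTp' : IsPGroup p T' := IsPGroup.of_card (n := n) (by rw [hcard, hn])
  have hidx : ∀ S : Subgroup G, S ≤ U → Nat.card S = Nat.card T →
      ¬ p ∣ (S.subgroupOf U).index := by
    intro S hS hc
    have h1 : (S.subgroupOf U).index = Nat.card U / Nat.card T := by
      have h2 := Subgroup.card_mul_index (S.subgroupOf U)
      have h3 : Nat.card (S.subgroupOf U) = Nat.card S :=
        Nat.card_congr (Subgroup.subgroupOfEquivOfLe hS).toEquiv
      rw [h3, hc] at h2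
      rw [← h2, Nat.mul_div_cancel_left _ Nat.card_pos]
    rw [h1]
    exact hsyl
  have hP : IsPGroup p (T.subgroupOf U) := hTp.comap_subtype
  have hP' : IsPGroup p (T'.subgroupOf U) := hTp'.comap_subtype
  obtain ⟨P, hPdef⟩ : ∃ P : Sylow p U, (P : Subgroup U) = T.subgroupOf U :=
    ⟨hP.toSylow (hidx T hT rfl), rfl⟩
  obtain ⟨P', hP'def⟩ : ∃ P' : Sylow p U, (P' : Subgroup U) = T'.subgroupOf U :=
    ⟨hP'.toSylow (hidx T' hT' hcard), rfl⟩
  obtain ⟨g, hg⟩ := MulAction.exists_smul_eq U P' P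
  refine ⟨g, g.2, fun x => ?_⟩
  constructor
  · intro hx
    have hxU : x ∈ U := hT' hx
    have h1 : (⟨x, hxU⟩ : U) ∈ (P' : Subgroup U) := by
      rw [hP'def]
      exact hx
    have h2 : MulAut.conj g • (⟨x, hxU⟩ : U) ∈ MulAut.conj g • (P' : Subgroup U) :=
      Subgroup.smul_mem_pointwise_smul _ _ _ h1
    rw [← Sylow.pointwise_smul_def, ← Sylow.smul_def, hg, hPdef] at h2
    exact h2
  · intro hx
    have hgU : (g : G) ∈ U := g.2
    have hxU : x ∈ U := by
      have h1 : (g : G) * x * (g : G)⁻¹ ∈ U := hT hx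
      have h2 : x = (g : G)⁻¹ * ((g : G) * x * (g : G)⁻¹) * (g : G) := by group
      rw [h2]
      exact U.mul_mem (U.mul_mem (U.inv_mem hgU) h1) hgU
    have h3 : MulAut.conj g • (⟨x, hxU⟩ : U) ∈ (P : Subgroup U) := by
      rw [hPdef]
      exact hx
    rw [← hg, Sylow.smul_def, Sylow.pointwise_smul_def, Subgroup.smul_mem_pointwise_smul_iff,
      hP'def] at h3
    exact h3

end Cfsg.Agent.Lib.Helper86.TwoPr
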