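import Cfsg.Agent.Lib.Helper46.BSW0
import Cfsg.Agent.Lib.Helper4.CharExp2
import Cfsg.Agent.Lib.Helper23.ExcComb3

set_option autoImplicit false
set_option linter.style.haveILetI false

namespace Cfsg.Agent.Lib.Helper86.BSWDFAM

open Cfsg Cfsg.Agent.Lib.Helper4 Cfsg.Agent.Lib.Helper46.BSW
open scoped ComplexConjugate

universe u

variable {G : Type u} [Group G]

/-- elements of `M ⊔ ⟨u⟩` when `u` squares to one and inverts `M` -/
theorem mem_sup_zpowers {M : Subgroup G} {u : G} (hu : u * u = 1)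
    (hinv : ∀ d ∈ M, u * d * u⁻¹ = d⁻¹) (g : G) (hg : g ∈ M ⊔ Subgroup.zpowers u) :
    g ∈ M ∨ g * u⁻¹ ∈ M := by
  let N : Subgroup G :=
    { carrier := {g | g ∈ M ∨ g * u⁻¹ ∈ M}
      one_mem' := Or.inl M.one_mem
      mul_mem' := by
        rintro a b (ha | ha) (hb | hb)
        · exact Or.inl (M.mul_mem ha hb)
        · right
          have h1 : a * b * u⁻¹ = a * (b * u⁻¹) := by group
          rw [h1]
          exact M.mul_mem ha hb
        · right
          have h1 : a * b * u⁻¹ = (a * u⁻¹) * (u * b * u⁻¹) := by group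
          rw [h1, hinv b hb]
          exact M.mul_mem ha (M.inv_mem hb)
        · left
          have h1 : a * b = (a * u⁻¹) * (u * (b * u⁻¹) * u⁻¹) * (u * u) := by group
          rw [h1, hinv _ hb, hu, mul_one]
          exact M.mul_mem ha (M.inv_mem hb)
      inv_mem' := by
        rintro a (ha | ha)
        · exact Or.inl (M.inv_mem ha)
        · right
          have h1 : a⁻¹ * u⁻¹ = (u * u)⁻¹ * (u * (a * u⁻¹)⁻¹ * u⁻¹) := by group
          rw [h1, hinv _ (M.inv_mem ha), hu, inv_one, one_mul, inv_inv]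
          exact ha }
  have h1 : M ≤ N := fun x hx => Or.inl hx
  have h2 : Subgroup.zpowers u ≤ N := by
    rw [Subgroup.zpowers_le]
    right
    rw [mul_inv_cancel]
    exact M.one_mem
  exact (sup_le h1 h2) hg

theorem torus_hTI {K : Subgroup G} {Δ : IrrCharacter G} {M : Subgroup G} {u : G}
    (hT : TorusData K Δ M u) :
    ∀ g : G, ∀ x ∈ M, x ≠ 1 → g * x * g⁻¹ ∈ M → g ∈ M ∨ g * u⁻¹ ∈ M := by
  intro g x hx hx1 hgx
  have hu2 : u * u = 1 := by
    have h := pow_orderOf_eq_one u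
    rwa [hT.hu, pow_two] at h
  apply mem_sup_zpowers hu2 hT.hinv
  rw [← hT.norm, Subgroup.mem_normalizer_iff]
  have hy1 : g * x * g⁻¹ ≠ 1 := by
    intro h
    apply hx1
    have h1 : x = g⁻¹ * (g * x * g⁻¹) * g := by group
    rw [h1, h]
    group
  intro m
  constructor
  · intro hm
    show g * m * g⁻¹ ∈ M
    rw [← hT.cent (g * x * g⁻¹) hgx hy1, Subgroup.mem_centralizer_iff]
    intro h hh
    rw [Set.mem_singleton_iff] at hh
    rw [hh]
    have hxm : x * m = m * x := hT.hab x hx m hm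
    calc g * x * g⁻¹ * (g * m * g⁻¹) = g * (x * m) * g⁻¹ := by group
      _ = g * (m * x) * g⁻¹ := by rw [hxm]
      _ = g * m * g⁻¹ * (g * x * g⁻¹) := by group
  · intro hm
    have hm' : g * m * g⁻¹ ∈ M := hm
    show m ∈ M
    rw [← hT.cent x hx hx1, Subgroup.mem_centralizer_iff]
    intro h hh
    rw [Set.mem_singleton_iff] at hh
    rw [hh]
    have hc := hT.hab (g * x * g⁻¹) hgx (g * m * g⁻¹) hm'
    calc x * m = g⁻¹ * (g * x * g⁻¹ * (g * m * g⁻¹)) * g := by group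
      _ = g⁻¹ * (g * m * g⁻¹ * (g * x * g⁻¹)) * g := by rw [hc]
      _ = m * x := by group

theorem third_index {ι : Type*} (i j k a b : ι) (hij : i ≠ j) (hik : i ≠ k) (hjk : j ≠ k)
    (ha : a = i ∨ a = j ∨ a = k) (hb : b = i ∨ b = j ∨ b = k) (hab : a ≠ b) :
    ∃ y, (y = i ∨ y = j ∨ y = k) ∧ y ≠ a ∧ y ≠ b ∧
      ∀ l, l ≠ a → l ≠ b → l ≠ y → (l ≠ i ∧ l ≠ j ∧ l ≠ k) := by
  rcases ha with rfl | rfl | rfl <;> rcases hb with rfl | rfl | rfl
  · exact absurd rfl hab
  · exact ⟨k, Or.inr (Or.inr rfl), hik.symm, hjk.symm, fun l h1 h2 h3 => ⟨h1, h2, h3⟩⟩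
  · exact ⟨j, Or.inr (Or.inl rfl), hij.symm, hjk, fun l h1 h2 h3 => ⟨h1, h3, h2⟩⟩
  · exact ⟨k, Or.inr (Or.inr rfl), hjk.symm, hik.symm, fun l h1 h2 h3 => ⟨h2, h1, h3⟩⟩
  · exact absurd rfl hab
  · exact ⟨i, Or.inl rfl, hij, hik, fun l h1 h2 h3 => ⟨h3, h1, h2⟩⟩
  · exact ⟨j, Or.inr (Or.inl rfl), hjk, hij.symm, fun l h1 h2 h3 => ⟨h2, h3, h1⟩⟩
  · exact ⟨i, Or.inl rfl, hik, hij, fun l h1 h2 h3 => ⟨h3, h2, h1⟩⟩
  · exact absurd rfl hab

/-- the piece DFAM, with the pieces IND and AB it uses as hypotheses -/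
theorem dseries_of [Fintype G] [Fintype (IrrCharacter G)] (K : Subgroup G)
    (Δ : IrrCharacter G) (hΔ : Δ ≠ trivIrr)
    (hdeg : (Δ : G → ℂ) 1 = 2 * (Nat.card K : ℂ) - 1) (M : Subgroup G) (u : G)
    (hT : TorusData K Δ M u) [Fintype (IrrCharacter M)]
    (hIND : ∃ c : IrrCharacter M → IrrCharacter G → ℤ, IndData M c)
    (hsum : ∀ x : ↥M, x ≠ 1 → ∑ l : IrrCharacter ↥M, (l : ↥M → ℂ) x = 0)
    (hindep : ∀ β : IrrCharacter ↥M → ℂ, β trivIrr = 0 →
      (∀ x : ↥M, x ≠ 1 → ∑ l : IrrCharacter ↥M, β l * (l : ↥M → ℂ) x = 0) → ∀ l, β l = 0)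
    (hreal : Nat.card {l : IrrCharacter ↥M // cbar l = l} = Nat.card {x : ↥M // x * x = 1})
    (htriv : cbar (trivIrr : IrrCharacter ↥M) = trivIrr) :
    ∃ Y : IrrCharacter M → IrrCharacter G, DSeries K Δ M Y := by
  classical
  obtain ⟨c, hc⟩ := hIND
  have hu2 : u * u = 1 := by
    have h := pow_orderOf_eq_one u
    rwa [hT.hu, pow_two] at h
  have hnoinv : ∀ x : ↥M, x * x = 1 → x = 1 := by
    intro x hx
    by_contra hx1
    have hxM : (x : G) ≠ 1 := fun h => hx1 (Subtype.ext h)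
    have hinv := hT.hinv x x.2
    have hxx : (x : G)⁻¹ = x := by
      have h1 : (x : G) * x = 1 := congrArg Subtype.val hx
      exact inv_eq_of_mul_eq_one_left h1
    rw [hxx] at hinv
    have hcomm : u * (x : G) = x * u := by
      calc u * (x : G) = u * x * u⁻¹ * u := by group
        _ = x * u := by rw [hinv]
    have hmem : u ∈ Subgroup.centralizer ({(x : G)} : Set G) := by
      rw [Subgroup.mem_centralizer_iff]
      intro h hh
      rw [Set.mem_singleton_iff] at hh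
      rw [hh]
      exact hcomm.symm
    rw [hT.cent x x.2 hxM] at hmem
    exact hT.huM hmem
  have hnonreal : ∀ ν : IrrCharacter ↥M, ν ≠ trivIrr → cbar ν ≠ ν := by
    intro ν hν hbar
    have h1 : Nat.card {x : ↥M // x * x = 1} = 1 := by
      rw [Nat.card_eq_one_iff_unique]
      refine ⟨⟨fun a b => Subtype.ext ?_⟩, ⟨⟨1, mul_one 1⟩⟩⟩
      rw [hnoinv a a.2, hnoinv b b.2]
    rw [← hreal, Nat.card_eq_one_iff_unique] at h1
    obtain ⟨hsub, _⟩ := h1
    have h2 := @Subsingleton.elim _ hsub ⟨ν, hbar⟩ ⟨trivIrr, htriv⟩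
    exact hν (congrArg Subtype.val h2)
  have hcΔ : ∀ ν : IrrCharacter ↥M, ν ≠ trivIrr → c ν Δ = 1 := by
    let β : IrrCharacter ↥M → ℂ := fun ν => if ν = trivIrr then 0 else (c ν Δ : ℂ) - 1
    have hβ0 : β trivIrr = 0 := if_pos rfl
    have hβ : ∀ x : ↥M, x ≠ 1 → ∑ l : IrrCharacter ↥M, β l * (l : ↥M → ℂ) x = 0 := by
      intro x hx
      have hxG : (x : G) ≠ 1 := fun h => hx (Subtype.ext h)
      have hf := hc.fourier Δ x hx
      rw [hT.val x x.2 hxG] at hf
      have hs := hsum x hx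
      have hterm : ∀ l : IrrCharacter ↥M, β l * (l : ↥M → ℂ) x =
          (c l Δ : ℂ) * (l : ↥M → ℂ) x - (l : ↥M → ℂ) x + (if l = trivIrr then 1 else 0) := by
        intro l
        by_cases hl : l = trivIrr
        · rw [hl, hβ0, if_pos rfl, hc.triv_row]
          have h1 : ((trivIrr : IrrCharacter ↥M) : ↥M → ℂ) x = 1 := rfl
          rw [h1]
          push_cast
          ring
        · have h1 : β l = (c l Δ : ℂ) - 1 := if_neg hl
          rw [h1, if_neg hl]
          ring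
      rw [Finset.sum_congr rfl (fun l _ => hterm l), Finset.sum_add_distrib,
        Finset.sum_sub_distrib, hs, Finset.sum_ite_eq' Finset.univ trivIrr (fun _ => (1 : ℂ)),
        if_pos (Finset.mem_univ _)]
      linear_combination hf
    have hall := hindep β hβ0 hβ
    intro ν hν
    have h1 := hall ν
    have h2 : β ν = (c ν Δ : ℂ) - 1 := if_neg hν
    rw [h2] at h1
    have h3 : (c ν Δ : ℂ) = 1 := by linear_combination h1
    exact_mod_cast h3
  have hrow : ∀ ν : IrrCharacter ↥M, ν ≠ trivIrr → ∃ Y : IrrCharacter G, Y ≠ trivIrr ∧ Y ≠ Δ ∧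
      (c ν Y = 1 ∨ c ν Y = -1) ∧ ∀ χ, χ ≠ trivIrr → χ ≠ Δ → χ ≠ Y → c ν χ = 0 := by
    intro ν hν
    have hg := hc.gram ν ν hν hν
    rw [if_pos rfl, if_neg (fun h => hnonreal ν hν h.symm)] at hg
    have h3 : ∑ χ, c ν χ ^ 2 = 3 := by
      have h0 : ∑ χ, c ν χ ^ 2 = ∑ χ, c ν χ * c ν χ :=
        Finset.sum_congr rfl (fun χ _ => sq (c ν χ))
      rw [h0, hg]
      norm_num
    obtain ⟨i, j, k, hij, hik, hjk, hi, hj, hk, hrest⟩ :=
      Cfsg.Agent.Lib.Helper23.three_square (c ν) h3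
    have h1 : c ν trivIrr = 1 := hc.triv_col ν hν
    have h2 : c ν Δ = 1 := hcΔ ν hν
    have ht : (trivIrr : IrrCharacter G) = i ∨ trivIrr = j ∨ trivIrr = k := by
      by_contra hcon
      push Not at hcon
      have h4 := hrest trivIrr hcon.1 hcon.2.1 hcon.2.2
      rw [h1] at h4
      exact one_ne_zero h4
    have hd : Δ = i ∨ Δ = j ∨ Δ = k := by
      by_contra hcon
      push Not at hcon
      have h4 := hrest Δ hcon.1 hcon.2.1 hcon.2.2
      rw [h2] at h4
      exact one_ne_zero h4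
    obtain ⟨y, hy, hy1, hy2, hyrest⟩ :=
      third_index i j k trivIrr Δ hij hik hjk ht hd (Ne.symm hΔ)
    have hyc : c ν y = 1 ∨ c ν y = -1 := by
      rcases hy with rfl | rfl | rfl
      · exact hi
      · exact hj
      · exact hk
    refine ⟨y, hy1, hy2, hyc, fun χ h4 h5 h6 => ?_⟩
    obtain ⟨h7, h8, h9⟩ := hyrest χ h4 h5 h6
    exact hrest χ h7 h8 h9
  haveI : Nonempty (IrrCharacter G) := ⟨trivIrr⟩
  choose! Yf hYf using hrow
  have hsumrow : ∀ ν : IrrCharacter ↥M, ν ≠ trivIrr → ∀ F : IrrCharacter G → ℂ,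
      ∑ χ, (c ν χ : ℂ) * F χ = F trivIrr + F Δ + (c ν (Yf ν) : ℂ) * F (Yf ν) := by
    intro ν hν F
    obtain ⟨hY1, hY2, hY3, hY4⟩ := hYf ν hν
    have hsub : ∑ χ ∈ ({trivIrr, Δ, Yf ν} : Finset (IrrCharacter G)), (c ν χ : ℂ) * F χ =
        ∑ χ, (c ν χ : ℂ) * F χ := by
      apply Finset.sum_subset (Finset.subset_univ _)
      intro χ _ hχ
      simp only [Finset.mem_insert, Finset.mem_singleton, not_or] at hχ
      rw [hY4 χ hχ.1 hχ.2.1 hχ.2.2]
      simp
    have hm1 : (trivIrr : IrrCharacter G) ∉ ({Δ, Yf ν} : Finset (IrrCharacter G)) := by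
      simp only [Finset.mem_insert, Finset.mem_singleton, not_or]
      exact ⟨Ne.symm hΔ, Ne.symm hY1⟩
    have hm2 : Δ ∉ ({Yf ν} : Finset (IrrCharacter G)) := by
      simp only [Finset.mem_singleton]
      exact Ne.symm hY2
    rw [← hsub, Finset.sum_insert hm1, Finset.sum_insert hm2, Finset.sum_singleton,
      hc.triv_col ν hν, hcΔ ν hν]
    push_cast
    ring
  have hσ : ∀ ν : IrrCharacter ↥M, ν ≠ trivIrr →
      c ν (Yf ν) = -1 ∧ (Yf ν : G → ℂ) 1 = 2 * (Nat.card K : ℂ) := by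
    intro ν hν
    obtain ⟨hY1, hY2, hY3, hY4⟩ := hYf ν hν
    have hv := hc.vanish ν 1 (Or.inl rfl)
    rw [hsumrow ν hν (fun χ => (χ : G → ℂ) 1)] at hv
    have ht1 : ((trivIrr : IrrCharacter G) : G → ℂ) 1 = 1 := rfl
    simp only [ht1] at hv
    rw [hdeg] at hv
    obtain ⟨n, hn, hYn⟩ := irr_one_nat (Yf ν)
    rw [hYn] at hv ⊢
    rcases hY3 with h | h
    · exfalso
      rw [h] at hv
      have h5 : ((2 * Nat.card K + n : ℕ) : ℂ) = 0 := by
        push_cast
        push_cast at hv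
        linear_combination hv
      have h6 : 2 * Nat.card K + n = 0 := by exact_mod_cast h5
      omega
    · refine ⟨h, ?_⟩
      rw [h] at hv
      push_cast at hv
      linear_combination -hv
  refine ⟨Yf, ⟨hnonreal, fun ν hν => (hσ ν hν).2, ?_, ?_⟩⟩
  · intro ν ν' hν hν'
    obtain ⟨hY1, hY2, hY3, hY4⟩ := hYf ν hν
    obtain ⟨hY1', hY2', hY3', hY4'⟩ := hYf ν' hν'
    have hg := hc.gram ν ν' hν hν'
    have hL : (∑ χ, c ν χ * c ν' χ : ℤ) = 2 - c ν' (Yf ν) := by
      have h1 := hsumrow ν hν (fun χ => (c ν' χ : ℂ))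
      rw [(hσ ν hν).1, hc.triv_col ν' hν', hcΔ ν' hν'] at h1
      have h2 : ((∑ χ, c ν χ * c ν' χ : ℤ) : ℂ) = ((2 - c ν' (Yf ν) : ℤ) : ℂ) := by
        push_cast
        rw [h1]
        push_cast
        ring
      exact_mod_cast h2
    rw [hL] at hg
    constructor
    · intro hYY
      rw [hYY, (hσ ν' hν').1] at hg
      by_contra hcon
      push Not at hcon
      rw [if_neg hcon.1, if_neg hcon.2] at hg
      norm_num at hg
    · intro h
      by_contra hYY
      have h0 : c ν' (Yf ν) = 0 := hY4' (Yf ν) hY1 hY2 hYY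
      rw [h0] at hg
      rcases h with h | h
      · rw [if_pos h] at hg
        split_ifs at hg <;> omega
      · rw [if_pos h] at hg
        split_ifs at hg <;> omega
  · intro ν hν y hy
    have hv := hc.vanish ν y (Or.inr hy)
    rw [hsumrow ν hν (fun χ => (χ : G → ℂ) y), (hσ ν hν).1] at hv
    have ht1 : ((trivIrr : IrrCharacter G) : G → ℂ) y = 1 := rfl
    simp only [ht1] at hv
    push_cast at hv
    linear_combination -hv

end Cfsg.Agent.Lib.Helper86.BSWDFAM
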