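import Cfsg.Agent.Lib.Helper86.Blk
import Cfsg.Agent.Lib.Helper20.Ito

set_option autoImplicit false
set_option linter.unusedSimpArgs false
set_option linter.unusedVariables false
set_option linter.style.haveILetI false

namespace Cfsg.Agent.Lib.Helper86

open Cfsg
open scoped ComplexConjugate
open scoped commutatorElement

/-- A height zero character of a block restricts to the defect group (attached to a defect
class `g`) with a linear constituent. -/
theorem exists_linear_constituent {G : Type*} [Group G] [Fintype G] {p : ℕ} [Fact p.Prime]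
    {M : Ideal AlgInt} (hM : IsPModular p M) (B : Set (IrrCharacter G)) (hB : IsPBlock M B)
    (g : G) (hg : IsDefectClass M B g) (Ps : Sylow p (Subgroup.centralizer ({g} : Set G)))
    (χ : IrrCharacter G) (hχ : χ ∈ B) (h0 : blockHeight p B (χ : G → ℂ) = 0)
    [Fintype ((Ps : Subgroup (Subgroup.centralizer ({g} : Set G))).map
      (Subgroup.centralizer ({g} : Set G)).subtype)] :
    ∃ θ : ((Ps : Subgroup (Subgroup.centralizer ({g} : Set G))).map
        (Subgroup.centralizer ({g} : Set G)).subtype) → ℂ,
      IsIrrCharacter _ θ ∧ θ 1 = 1 ∧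
      classInner (fun h : ((Ps : Subgroup (Subgroup.centralizer ({g} : Set G))).map
        (Subgroup.centralizer ({g} : Set G)).subtype) => (χ : G → ℂ) h) θ ≠ 0 := by
  classical
  by_contra hcon
  push Not at hcon
  haveI : Fintype (Ps : Subgroup (Subgroup.centralizer ({g} : Set G))) := Fintype.ofFinite _
  have hgC : g ∈ Subgroup.centralizer ({g} : Set G) := by
    rw [Subgroup.mem_centralizer_iff]
    intro h hh
    rw [Set.mem_singleton_iff.mp hh]
  have hcomm : ∀ x ∈ Subgroup.centralizer ({g} : Set G), g * x = x * g := by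
    intro x hx
    rw [Subgroup.mem_centralizer_iff] at hx
    exact hx g rfl
  let e := Subgroup.equivMapOfInjective (Ps : Subgroup (Subgroup.centralizer ({g} : Set G)))
    (Subgroup.centralizer ({g} : Set G)).subtype
    (Subgroup.subtype_injective (Subgroup.centralizer ({g} : Set G)))
  have hno : ∀ η : IrrCharacter (Ps : Subgroup (Subgroup.centralizer ({g} : Set G))),
      η.1 1 = 1 →
      ∑ d : (Ps : Subgroup (Subgroup.centralizer ({g} : Set G))),
        (χ : G → ℂ) ((d : Subgroup.centralizer ({g} : Set G)) : G) * conj (η.1 d) = 0 := by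
    intro η hη1
    have hθirr : IsIrrCharacter _ (fun h => η.1 (e.symm h)) :=
      Helper20.irr_comp_surjective e.symm.toMonoidHom e.symm.surjective η.2
    have hθ1 : (fun h => η.1 (e.symm h)) 1 = 1 := by
      show η.1 (e.symm 1) = 1
      rw [map_one]
      exact hη1
    have h1 := hcon _ hθirr hθ1
    unfold classInner at h1
    have hcard : (Nat.card ((Ps : Subgroup (Subgroup.centralizer ({g} : Set G))).map
        (Subgroup.centralizer ({g} : Set G)).subtype) : ℂ) ≠ 0 := by
      exact_mod_cast Nat.card_pos.ne'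
    have h2 := (mul_eq_zero.mp h1).resolve_left (inv_ne_zero hcard)
    rw [← h2]
    refine Fintype.sum_equiv e.toEquiv _ _ (fun d => ?_)
    show (χ : G → ℂ) ((d : Subgroup.centralizer ({g} : Set G)) : G) * conj (η.1 d) =
      (χ : G → ℂ) ((e d : _) : G) * conj (η.1 (e.symm (e d)))
    rw [e.symm_apply_apply, Subgroup.coe_equivMapOfInjective_apply]
    rfl
  obtain ⟨α, hα, hχg⟩ := char_value_dvd_of_no_linear p χ g
    (Subgroup.centralizer ({g} : Set G)) hgC hcomm
    (Ps : Subgroup (Subgroup.centralizer ({g} : Set G))) Ps.isPGroup' hno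
  exact height_zero_not_dvd hM B hB g hg χ hχ h0 α hα hχg

/-- If the restriction of an irreducible character to a normal subgroup `P` has a linear
constituent, the derived subgroup of `P` lies in the kernel. -/
theorem commutator_le_ker_of_linear_constituent {G : Type*} [Group G] [Fintype G]
    (P : Subgroup G) [hP : P.Normal] [Fintype P] (χ : IrrCharacter G) (θ : P → ℂ)
    (hθ : IsIrrCharacter P θ) (hθ1 : θ 1 = 1)
    (hcon : classInner (fun h : P => (χ : G → ℂ) h) θ ≠ 0) (c : P) (hc : c ∈ commutator P) :
    (χ : G → ℂ) (c : G) = (χ : G → ℂ) 1 := by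
  have hT : ∀ g : G, g ∈ Helper20.inertia P θ ↔ Helper20.conjFun P θ g = θ := fun g => Iff.rfl
  have h1 := Helper20.clifford_res P hθ χ.2 hcon (Helper20.inertia P θ) hT c
  have h2 := Helper20.clifford_res P hθ χ.2 hcon (Helper20.inertia P θ) hT 1
  have hone : ∀ x : G, Helper20.conjFun P θ x 1 = 1 := by
    intro x
    rw [Helper20.conjFun_apply]
    have : (⟨x * ((1 : P) : G) * x⁻¹, hP.conj_mem ((1 : P) : G) (1 : P).2 x⟩ : P) = 1 := by
      apply Subtype.ext
      simp
    rw [this]
    exact hθ1
  have hcomm : ∀ x : G, Helper20.conjFun P θ x c = 1 := by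
    intro x
    exact Helper83.irr_linear_commutator (Helper20.conjFun_irr P hθ x) (hone x) hc
  have h3 : (χ : G → ℂ) ((1 : P) : G) = (χ : G → ℂ) 1 := rfl
  rw [← h3, h1, h2]
  congr 1
  exact Finset.sum_congr rfl fun x _ => by rw [hcomm x, hone x]

/-- In a block with a normal abelian defect group every character has height zero. -/
theorem height_zero_of_abelian_normal {G : Type*} [Group G] [Fintype G] {p : ℕ} [Fact p.Prime]
    {M : Ideal AlgInt} (hM : IsPModular p M) (B : Set (IrrCharacter G)) (hB : IsPBlock M B)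
    (g : G) (hg : IsDefectClass M B g) (Ps : Sylow p (Subgroup.centralizer ({g} : Set G)))
    (P : Subgroup G) [P.Normal]
    (hPs : P = (Ps : Subgroup (Subgroup.centralizer ({g} : Set G))).map
      (Subgroup.centralizer ({g} : Set G)).subtype)
    (hab : ∀ a ∈ P, ∀ c ∈ P, a * c = c * a) (χ : IrrCharacter G) (hχ : χ ∈ B) :
    blockHeight p B (χ : G → ℂ) = 0 := by
  have hp : p.Prime := Fact.out
  have hdef := Helper22.blockDefect_eq_of_defectClass hM B hB g hg
  obtain ⟨hpos, hχ1⟩ := Helper83.irr_degree χ.2
  have hito := Helper20.ito P hab χ.2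
  set n := charDegree (χ : G → ℂ) with hn
  set S : Set ℕ := (fun ψ : IrrCharacter G => (charDegree (ψ : G → ℂ)).factorization p) '' B
    with hS
  have hmem : n.factorization p ∈ S := ⟨χ, hχ, rfl⟩
  have hinfle : sInf S ≤ n.factorization p := Nat.sInf_le hmem
  have hndvd : n ∣ Nat.card G := Helper83.irr_degree_dvd_card χ
  have hnle : n.factorization p ≤ (Nat.card G).factorization p :=
    (Nat.factorization_le_iff_dvd hpos.ne' Nat.card_pos.ne').mpr hndvd p
  have hdef' : (Nat.card G).factorization p - sInf S =
      (Nat.card (Subgroup.centralizer ({g} : Set G))).factorization p := hdef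
  have hcardP : Nat.card P =
      p ^ (Nat.card (Subgroup.centralizer ({g} : Set G))).factorization p := by
    rw [hPs, ← Ps.card_eq_multiplicity]
    exact (Nat.card_congr (Subgroup.equivMapOfInjective
      (Ps : Subgroup (Subgroup.centralizer ({g} : Set G)))
      (Subgroup.centralizer ({g} : Set G)).subtype
      (Subgroup.subtype_injective (Subgroup.centralizer ({g} : Set G)))).toEquiv).symm
  have hidx0 : P.index ≠ 0 := Subgroup.index_ne_zero_of_finite
  have hfac : (Nat.card G).factorization p = P.index.factorization p +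
      (Nat.card (Subgroup.centralizer ({g} : Set G))).factorization p := by
    rw [← Subgroup.index_mul_card P, Nat.factorization_mul hidx0 Nat.card_pos.ne', hcardP,
      hp.factorization_pow]
    simp
  have hle2 : n.factorization p ≤ P.index.factorization p :=
    (Nat.factorization_le_iff_dvd hpos.ne' hidx0).mpr hito p
  show n.factorization p - sInf S = 0
  omega

/-- If all characters of a block with normal defect group `P` have height zero, then `P` is
abelian. -/
theorem abelian_of_all_height_zero {G : Type*} [Group G] [Fintype G] {p : ℕ} [Fact p.Prime]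
    {M : Ideal AlgInt} (hM : IsPModular p M) (B : Set (IrrCharacter G)) (hB : IsPBlock M B)
    (g : G) (hg : IsDefectClass M B g) (Ps : Sylow p (Subgroup.centralizer ({g} : Set G)))
    (P : Subgroup G) [P.Normal]
    (hPs : P = (Ps : Subgroup (Subgroup.centralizer ({g} : Set G))).map
      (Subgroup.centralizer ({g} : Set G)).subtype)
    (hall : ∀ χ ∈ B, blockHeight p B (χ : G → ℂ) = 0) :
    ∀ a ∈ P, ∀ c ∈ P, a * c = c * a := by
  classical
  subst hPs
  set P := (Ps : Subgroup (Subgroup.centralizer ({g} : Set G))).map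
      (Subgroup.centralizer ({g} : Set G)).subtype with hPdef
  haveI : Fintype P := Fintype.ofFinite _
  have hfin := Helper4.irr_finite (G := G)
  letI : Fintype (IrrCharacter G) := Fintype.ofFinite (IrrCharacter G)
  have hker : ∀ c : P, c ∈ commutator P → ∀ χ ∈ B, (χ : G → ℂ) (c : G) = (χ : G → ℂ) 1 := by
    intro c hc χ hχ
    obtain ⟨θ, hθ, hθ1, hcon⟩ := exists_linear_constituent hM B hB g hg Ps χ hχ (hall χ hχ)
    exact commutator_le_ker_of_linear_constituent P χ θ hθ hθ1 hcon c hc
  obtain ⟨χ₀, hχ₀⟩ := hB
  have hχ₀B : χ₀ ∈ B := by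
    rw [hχ₀]
    exact Cfsg.Agent.S0952.sameBlock_refl hM _
  have hPp : IsPGroup p P := Ps.isPGroup'.map _
  have hbot : ∀ c : P, c ∈ commutator P → c = 1 := by
    intro c hc
    by_contra hne
    have hpdvd : p ∣ orderOf (c : G) := by
      obtain ⟨k, hk⟩ := hPp c
      have hord : orderOf c ∣ p ^ k := orderOf_dvd_of_pow_eq_one hk
      obtain ⟨j, hj, hj2⟩ := (Nat.dvd_prime_pow (Fact.out : p.Prime)).mp hord
      rw [Subgroup.orderOf_coe, hj2]
      rcases Nat.eq_zero_or_pos j with h0 | h0
      · exfalso
        rw [h0, pow_zero, orderOf_eq_one_iff] at hj2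
        exact hne hj2
      · exact dvd_pow_self p h0.ne'
    have horth := Helper22.weak_block_orth hM B ⟨χ₀, hχ₀⟩ 1 (c : G)
      (by rw [orderOf_one]; exact (Fact.out : p.Prime).not_dvd_one) hpdvd
    rw [finsum_mem_def, finsum_eq_sum_of_fintype] at horth
    have hterm : ∀ χ : IrrCharacter G,
        Set.indicator B (fun χ : IrrCharacter G =>
          (χ : G → ℂ) 1 * conj ((χ : G → ℂ) (c : G))) χ
          = (((if χ ∈ B then charDegree (χ : G → ℂ) ^ 2 else 0 : ℕ)) : ℂ) := by
      intro χ
      by_cases hχ : χ ∈ B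
      · rw [Set.indicator_of_mem hχ, if_pos hχ, hker c hc χ hχ, (Helper83.irr_degree χ.2).2]
        simp [sq]
      · rw [Set.indicator_of_notMem hχ, if_neg hχ]
        simp
    rw [Finset.sum_congr rfl (fun χ _ => hterm χ)] at horth
    have h2 : ∑ χ : IrrCharacter G, (if χ ∈ B then charDegree (χ : G → ℂ) ^ 2 else 0) = 0 := by
      exact_mod_cast horth
    have h3 := (Finset.sum_eq_zero_iff.mp h2) χ₀ (Finset.mem_univ _)
    rw [if_pos hχ₀B] at h3
    have h4 := (Helper83.irr_degree χ₀.2).1
    have h5 : charDegree (χ₀ : G → ℂ) = 0 := by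
      rcases Nat.eq_zero_or_pos (charDegree (χ₀ : G → ℂ)) with h | h
      · exact h
      · exact absurd h3 (pow_pos h 2).ne'
    omega
  intro a ha c hc
  have hmem : ⁅(⟨a, ha⟩ : P), (⟨c, hc⟩ : P)⁆ ∈ commutator P := by
    rw [commutator_def]
    exact Subgroup.commutator_mem_commutator (Subgroup.mem_top _) (Subgroup.mem_top _)
  have h1 := hbot _ hmem
  rw [commutatorElement_eq_one_iff_mul_comm] at h1
  exact congrArg Subtype.val h1

end Cfsg.Agent.Lib.Helper86
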