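import Mathlib
import Cfsg.Agent.Lib.Helper4.FCDefs

/-! Project FC (S4146, architect helper4), piece S2I (helper86). -/

namespace Cfsg.Agent.Lib.Helper4.FC

universe u

theorem fc_s2i : ZSylStmt.{u} → HallAStmt.{u} → AIdxStmt.{u} → LemFStmt.{u} → S2iStmt.{u} := by
  intro hZSyl hHallA hAIdx hLemF G _ _ n m g hFour hmn hg
  classical
  by_contra hcon
  have hcen : ∀ (p : ℕ) (u : G), p.Prime → p ∣ n → Prim p u → u ∈ Cen g →
      u ∈ Subgroup.center G := by
    intro p u hp hpn hu hug
    by_contra hnc
    exact hcon ⟨p, u, hp, hpn, hu, hug, hnc⟩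
  obtain ⟨hn1, hm1, hnm, hcs, -, -, -⟩ := id hFour
  have hcs1 : ∀ x : G, cs x = 1 → x ∈ Subgroup.center G := by
    intro x hx
    have htop : Cen x = ⊤ := Subgroup.index_eq_one.1 hx
    rw [Subgroup.mem_center_iff]
    intro y
    have hy : y ∈ Cen x := by
      rw [htop]
      exact Subgroup.mem_top y
    exact ((Subgroup.mem_centralizer_iff.1 hy) x (Set.mem_singleton x)).symm
  have hcs1' : ∀ x : G, x ∈ Subgroup.center G → cs x = 1 := by
    intro x hx
    apply Subgroup.index_eq_one.2
    rw [eq_top_iff]
    intro y _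
    rw [Subgroup.mem_centralizer_iff]
    intro h hh
    rw [Set.mem_singleton_iff.1 hh]
    exact ((Subgroup.mem_center_iff.1 hx) y).symm
  have hprim : ∀ (p : ℕ) (x : G), p.Prime → p ∣ n → Prim p x → cs x = 1 ∨ cs x = m := by
    intro p x hp hpn hx
    by_cases hxc : x ∈ Subgroup.center G
    · exact Or.inl (hcs1' x hxc)
    · right
      have hxx : x ∈ Cen x := by
        rw [Subgroup.mem_centralizer_iff]
        intro h hh
        rw [Set.mem_singleton_iff.1 hh]
      have hlt := hZSyl G p g x x hp (fun u hu hug => hcen p u hp hpn hu hug) hx hxc hxx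
      have hpm : ¬ p ∣ m := by
        intro hpm
        have h1 : p ∣ Nat.gcd n m := Nat.dvd_gcd hpn hpm
        rw [Nat.Coprime.gcd_eq_one hnm] at h1
        exact hp.one_lt.ne' (Nat.dvd_one.1 h1)
      have hn0 : n ≠ 0 := by omega
      have hm0 : m ≠ 0 := by omega
      have hfac : (n * m).factorization p = n.factorization p := by
        rw [Nat.factorization_mul hn0 hm0, Finsupp.add_apply,
          Nat.factorization_eq_zero_of_not_dvd hpm, add_zero]
      have hgf : (cs g).factorization p = n.factorization p := by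
        rcases hg with h | h
        · rw [h]
        · rw [h, hfac]
      rw [hgf] at hlt
      rcases hcs x with h | h | h | h
      · exact absurd (hcs1 x h) hxc
      · rw [h] at hlt
        exact absurd hlt (lt_irrefl _)
      · exact h
      · rw [h, hfac] at hlt
        exact absurd hlt (lt_irrefl _)
  obtain ⟨A, hAn, hAab, hAcs, hAcop, hAp, hAall⟩ := hHallA G n m hFour hmn hprim
  have hrel := hAIdx G n m A g hFour hAn hAcop hAp hAall hg hcen
  exact hLemF G n m A hFour hAn hAab hAcop hAcs hrel

end Cfsg.Agent.Lib.Helper4.FC
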