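import Mathlib
import Cfsg.Agent.Lib.Helper7.Quat
import Cfsg.Agent.Lib.Helper43.QuatSL
import Cfsg.Agent.Lib.Helper23.DihedralLift

/-!
Piece R for S3304: a group of order 48 with generators `i, j, x, t` satisfying the relations
of `GL(2,3)` (quaternion subgroup `⟨i, j⟩`, an element `x` of order 3 permuting `i, j, ij`
cyclically, an involution `t` inverting `x`) is isomorphic to `GL(2,3)`.
-/

set_option autoImplicit false

namespace Cfsg.Agent.Lib.Helper86.GL23R

open QuaternionGroup DihedralGroup Cfsg.Agent.Lib.Helper7 Cfsg.Agent.Lib.Helper43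
  Cfsg.Agent.Lib.Helper23

/-- the automorphism `I ↦ J⁻¹`, `J ↦ I⁻¹` of `Q8`, as a homomorphism -/
def q8τ₀ : QuaternionGroup 2 →* QuaternionGroup 2 :=
  quatHom (n := 2) (by norm_num) (xa 2) (a 3) (by decide) (by decide) (by decide)

theorem q8τ₀_bij : Function.Bijective q8τ₀ := by decide

/-- the automorphism `I ↦ J⁻¹`, `J ↦ I⁻¹` of `Q8` -/
noncomputable def q8τ : MulAut (QuaternionGroup 2) := MulEquiv.ofBijective q8τ₀ q8τ₀_bij

theorem q8τ_apply (q : QuaternionGroup 2) : q8τ q = q8τ₀ q := rfl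

theorem q8α_pow_three : q8α ^ 3 = 1 := by
  apply MulEquiv.ext
  intro q
  have h : ∀ q : QuaternionGroup 2, q8α₀ (q8α₀ (q8α₀ q)) = q := by decide
  simpa [pow_succ, MulAut.mul_apply, q8α_apply] using h q

theorem q8τ_mul_self : q8τ * q8τ = 1 := by
  apply MulEquiv.ext
  intro q
  have h : ∀ q : QuaternionGroup 2, q8τ₀ (q8τ₀ q) = q := by decide
  simpa [MulAut.mul_apply, q8τ_apply] using h q

theorem q8τ_q8α : q8τ * q8α * q8τ * q8α = 1 := by
  apply MulEquiv.ext
  intro q
  have h : ∀ q : QuaternionGroup 2, q8τ₀ (q8α₀ (q8τ₀ (q8α₀ q))) = q := by decide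
  simpa [MulAut.mul_apply, q8τ_apply, q8α_apply] using h q

theorem q8τ_conj : q8τ * q8α * q8τ⁻¹ = q8α⁻¹ := by
  have h1 : q8τ⁻¹ = q8τ := inv_eq_of_mul_eq_one_right q8τ_mul_self
  rw [h1]
  exact eq_inv_of_mul_eq_one_left q8τ_q8α

/-- the action of `D₃ = S₃` on `Q8` -/
noncomputable def ψ : DihedralGroup 3 →* MulAut (QuaternionGroup 2) :=
  dihedralLift 3 q8α q8τ q8α_pow_three q8τ_mul_self q8τ_conj

theorem ψ_r_one : ψ (r 1) = q8α := dihedralLift_r_one 3 q8α q8τ _ _ _

theorem ψ_sr_zero : ψ (sr 0) = q8τ := dihedralLift_sr_zero 3 q8α q8τ _ _ _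

/-- the model `Q8 ⋊ S₃` of `GL(2,3)` -/
abbrev Model := QuaternionGroup 2 ⋊[ψ] DihedralGroup 3


theorem q8_pow_four : ∀ q : QuaternionGroup 2, q ^ 4 = 1 := by decide

theorem q8_sq_one : ∀ q : QuaternionGroup 2, q * q = 1 → q = 1 ∨ q = a 2 := by decide

theorem d3_cases : ∀ d : DihedralGroup 3, d = 1 ∨ d = r 1 ∨ d = r 1 * r 1 ∨ d = sr 0 ∨
    d = sr 0 * r 1 ∨ d = sr 0 * (r 1 * r 1) := by decide

theorem card_model : Nat.card Model = 48 := by
  rw [SemidirectProduct.card, Nat.card_eq_fintype_card, QuaternionGroup.card,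
    DihedralGroup.nat_card]

theorem model_equiv {H : Type*} [Group H] [Finite H] (hcard : Nat.card H = 48)
    (i j x t : H) (hi4 : i ^ 4 = 1) (hi2 : i * i ≠ 1) (hji : j * i = i⁻¹ * j)
    (hjj : j * j = i * i) (hxi : x * i * x⁻¹ = j) (hxj : x * j * x⁻¹ = i * j)
    (hx3 : x ^ 3 = 1) (hx1 : x ≠ 1) (ht2 : t * t = 1) (htx : t * x * t⁻¹ = x⁻¹)
    (hti : t * i * t⁻¹ = j⁻¹) : Nonempty (Model ≃* H) := by
  have hij : i * j = j * i⁻¹ := by
    have h1 : i * (j * i) = j := by rw [hji, mul_inv_cancel_left]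
    calc i * j = (i * (j * i)) * i⁻¹ := by group
      _ = j * i⁻¹ := by rw [h1]
  have hjj' : j * j = i ^ 2 := by rw [hjj, pow_two]
  have hi4' : i ^ (2 * 2) = 1 := hi4
  have hord : orderOf i = 2 * 2 := by
    have hd : orderOf i ∣ 2 ^ 2 := orderOf_dvd_of_pow_eq_one hi4
    rw [Nat.dvd_prime_pow Nat.prime_two] at hd
    obtain ⟨k, hk, hk2⟩ := hd
    interval_cases k
    · exfalso
      apply hi2
      have h1 : i = 1 := orderOf_eq_one_iff.mp (by simpa using hk2)
      rw [h1, one_mul]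
    · exfalso
      apply hi2
      rw [← pow_two]
      have h1 := pow_orderOf_eq_one i
      rwa [hk2] at h1
    · simpa using hk2
  have hinvi : i⁻¹ = i ^ 3 := by
    apply inv_eq_of_mul_eq_one_right
    rw [← pow_succ']
    exact hi4
  have htinv : t⁻¹ = t := inv_eq_of_mul_eq_one_right ht2
  have htj : t * j * t⁻¹ = i⁻¹ := by
    have h1 : t * j⁻¹ * t⁻¹ = i := by
      rw [← hti]
      calc t * (t * i * t⁻¹) * t⁻¹ = (t * t) * i * (t * t)⁻¹ := by group
        _ = i := by rw [ht2]; group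
    calc t * j * t⁻¹ = (t * j⁻¹ * t⁻¹)⁻¹ := by group
      _ = i⁻¹ := by rw [h1]
  let f₁ : QuaternionGroup 2 →* H := quatHom (n := 2) (by norm_num) i j hi4' hjj' hij
  have hf₁inj : Function.Injective f₁ := quatHom_injective (n := 2) (le_refl 2) i j hord hjj' hij
  have hf₁ : ∀ q : QuaternionGroup 2, f₁ q = quatFun i j q := fun q => rfl
  let f₂ : DihedralGroup 3 →* H := dihedralLift 3 x t hx3 ht2 htx
  have hf₂r : f₂ (r 1) = x := dihedralLift_r_one 3 x t _ _ _
  have hf₂s : f₂ (sr 0) = t := dihedralLift_sr_zero 3 x t _ _ _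
  -- the compatibility of the two homomorphisms with the action
  have hP1 : ∀ q, f₁ (ψ (r 1) q) = f₂ (r 1) * f₁ q * (f₂ (r 1))⁻¹ := by
    have h : f₁.comp q8α.toMonoidHom = (MulAut.conj x).toMonoidHom.comp f₁ := by
      apply quat_hom_ext
      · have h1 : q8α₀ (a 1) = xa 0 := by decide
        have h2 : f₁ (xa 0) = j := by
          rw [hf₁]; simp [quatFun]
        have h3 : f₁ (a 1) = i := by
          rw [hf₁]
          have : ((1 : ZMod (2 * 2))).val = 1 := by decide
          simp [quatFun, this]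
        simp only [MonoidHom.comp_apply, MulEquiv.coe_toMonoidHom, MulAut.conj_apply, q8α_apply]
        rw [h1, h2, h3, hxi]
      · have h1 : q8α₀ (xa 0) = xa 3 := by decide
        have h2 : f₁ (xa 3) = j * i ^ 3 := by
          rw [hf₁]
          have : ((3 : ZMod (2 * 2))).val = 3 := by decide
          simp [quatFun, this]
        have h3 : f₁ (xa 0) = j := by
          rw [hf₁]; simp [quatFun]
        simp only [MonoidHom.comp_apply, MulEquiv.coe_toMonoidHom, MulAut.conj_apply, q8α_apply]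
        rw [h1, h2, h3, hxj, ← hinvi, hij]
    intro q
    rw [ψ_r_one, hf₂r]
    exact DFunLike.congr_fun h q
  have hP2 : ∀ q, f₁ (ψ (sr 0) q) = f₂ (sr 0) * f₁ q * (f₂ (sr 0))⁻¹ := by
    have h : f₁.comp q8τ.toMonoidHom = (MulAut.conj t).toMonoidHom.comp f₁ := by
      apply quat_hom_ext
      · have h1 : q8τ₀ (a 1) = xa 2 := by decide
        have h2 : f₁ (xa 2) = j * i ^ 2 := by
          rw [hf₁]
          have : ((2 : ZMod (2 * 2))).val = 2 := by decide
          simp [quatFun, this]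
        have h3 : f₁ (a 1) = i := by
          rw [hf₁]
          have : ((1 : ZMod (2 * 2))).val = 1 := by decide
          simp [quatFun, this]
        simp only [MonoidHom.comp_apply, MulEquiv.coe_toMonoidHom, MulAut.conj_apply, q8τ_apply]
        rw [h1, h2, h3, hti, ← hjj']
        apply eq_inv_of_mul_eq_one_left
        have h4 : j * (j * j) * j = (j * j) * (j * j) := by group
        rw [h4, hjj, ← pow_two, ← pow_two, ← pow_mul]
        exact hi4
      · have h1 : q8τ₀ (xa 0) = a 3 := by decide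
        have h2 : f₁ (a 3) = i ^ 3 := by
          rw [hf₁]
          have : ((3 : ZMod (2 * 2))).val = 3 := by decide
          simp [quatFun, this]
        have h3 : f₁ (xa 0) = j := by
          rw [hf₁]; simp [quatFun]
        simp only [MonoidHom.comp_apply, MulEquiv.coe_toMonoidHom, MulAut.conj_apply, q8τ_apply]
        rw [h1, h2, h3, htj, hinvi]
    intro q
    rw [ψ_sr_zero, hf₂s]
    exact DFunLike.congr_fun h q
  have hPmul : ∀ d d' : DihedralGroup 3,
      (∀ q, f₁ (ψ d q) = f₂ d * f₁ q * (f₂ d)⁻¹) →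
      (∀ q, f₁ (ψ d' q) = f₂ d' * f₁ q * (f₂ d')⁻¹) →
      ∀ q, f₁ (ψ (d * d') q) = f₂ (d * d') * f₁ q * (f₂ (d * d'))⁻¹ := by
    intro d d' h h' q
    rw [map_mul, MulAut.mul_apply, h, h', map_mul]
    group
  have hcompat : ∀ d : DihedralGroup 3, ∀ q, f₁ (ψ d q) = f₂ d * f₁ q * (f₂ d)⁻¹ := by
    intro d
    rcases d3_cases d with rfl | rfl | rfl | rfl | rfl | rfl
    · intro q; simp
    · exact hP1
    · exact hPmul _ _ hP1 hP1
    · exact hP2
    · exact hPmul _ _ hP2 hP1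
    · exact hPmul _ _ hP2 (hPmul _ _ hP1 hP1)
  let π : Model →* H := SemidirectProduct.lift f₁ f₂
    (fun d => MonoidHom.ext fun q => hcompat d q)
  have hπ : ∀ (q : QuaternionGroup 2) (d : DihedralGroup 3), π ⟨q, d⟩ = f₁ q * f₂ d :=
    fun q d => rfl
  -- facts used for injectivity
  have hxx : x * x ≠ 1 := by
    intro h
    apply hx1
    calc x = x ^ 3 * (x * x)⁻¹ := by group
      _ = 1 := by rw [hx3, h]; group
  have hzx : x * (i * i) * x⁻¹ = i * i := by
    calc x * (i * i) * x⁻¹ = (x * i * x⁻¹) * (x * i * x⁻¹) := by group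
      _ = i * i := by rw [hxi, hjj]
  have hq4 : ∀ q : QuaternionGroup 2, (f₁ q) ^ 4 = 1 := by
    intro q
    rw [← map_pow, q8_pow_four, map_one]
  have key : ∀ u : H, u * x = x * u → t * u * t⁻¹ = u⁻¹ →
      ∀ q : QuaternionGroup 2, f₁ q * (t * u) = 1 → False := by
    intro u hu htu q hq
    have h1 : t * u = f₁ q⁻¹ := by
      rw [map_inv]
      exact eq_inv_of_mul_eq_one_right hq
    have h2 : (t * u) * (t * u) = 1 := by
      calc (t * u) * (t * u) = (t * u * t⁻¹) * (t * t) * u := by group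
        _ = 1 := by rw [htu, ht2]; group
    have h3 : q⁻¹ * q⁻¹ = 1 := by
      apply hf₁inj
      rw [map_mul, ← h1, h2, map_one]
    have h4 : f₁ q⁻¹ * x = x * f₁ q⁻¹ := by
      rcases q8_sq_one _ h3 with h | h
      · rw [h, map_one, one_mul, mul_one]
      · rw [h]
        have h5 : f₁ (a 2) = i * i := by
          rw [hf₁]
          have : ((2 : ZMod (2 * 2))).val = 2 := by decide
          simp [quatFun, this, pow_two]
        rw [h5]
        calc i * i * x = (x * (i * i) * x⁻¹) * x := by rw [hzx]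
          _ = x * (i * i) := by group
    have h6 : t * x = x * t := by
      have ht : t = f₁ q⁻¹ * u⁻¹ := by rw [← h1]; group
      have hu' : u⁻¹ * x = x * u⁻¹ := by
        calc u⁻¹ * x = u⁻¹ * (x * u) * u⁻¹ := by group
          _ = u⁻¹ * (u * x) * u⁻¹ := by rw [hu]
          _ = x * u⁻¹ := by group
      calc t * x = f₁ q⁻¹ * (u⁻¹ * x) := by rw [ht]; group
        _ = (f₁ q⁻¹ * x) * u⁻¹ := by rw [hu']; group
        _ = x * (f₁ q⁻¹ * u⁻¹) := by rw [h4]; group
        _ = x * t := by rw [← ht]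
    apply hxx
    have h7 : x⁻¹ = x := by
      rw [← htx, h6]; group
    calc x * x = x * x⁻¹ := by rw [h7]
      _ = 1 := by group
  have hinj : Function.Injective π := by
    rw [injective_iff_map_eq_one]
    rintro ⟨q, d⟩ h
    rw [hπ] at h
    rcases d3_cases d with rfl | rfl | rfl | rfl | rfl | rfl
    · rw [map_one, mul_one] at h
      have : q = 1 := hf₁inj (by rw [h, map_one])
      rw [this]; rfl
    · exfalso
      rw [hf₂r] at h
      have h1 : x = (f₁ q)⁻¹ := eq_inv_of_mul_eq_one_right h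
      have h2 : x ^ 4 = 1 := by rw [h1, inv_pow, hq4, inv_one]
      apply hx1
      calc x = x ^ 4 * (x ^ 3)⁻¹ := by group
        _ = 1 := by rw [h2, hx3]; group
    · exfalso
      rw [map_mul, hf₂r] at h
      have h1 : x * x = (f₁ q)⁻¹ := eq_inv_of_mul_eq_one_right h
      have h2 : (x * x) ^ 4 = 1 := by rw [h1, inv_pow, hq4, inv_one]
      have h3 : x ^ 8 = 1 := by rw [← h2, ← pow_two, ← pow_mul]
      have h9 : x ^ 9 = 1 := by rw [show 9 = 3 * 3 from rfl, pow_mul, hx3, one_pow]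
      have h98 : x ^ 9 = x ^ 8 * x := pow_succ x 8
      apply hx1
      rw [h3, one_mul] at h98
      rw [← h98, h9]
    · exfalso
      rw [hf₂s] at h
      refine key 1 (by group) (by group) q ?_
      rw [mul_one]; exact h
    · exfalso
      rw [map_mul, hf₂s, hf₂r] at h
      exact key x rfl htx q h
    · exfalso
      rw [map_mul, map_mul, hf₂s, hf₂r] at h
      refine key (x * x) (by group) ?_ q h
      calc t * (x * x) * t⁻¹ = (t * x * t⁻¹) * (t * x * t⁻¹) := by group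
        _ = (x * x)⁻¹ := by rw [htx]; group
  have hbij : Function.Bijective π := by
    rw [Nat.bijective_iff_injective_and_card]
    exact ⟨hinj, by rw [card_model, hcard]⟩
  exact ⟨MulEquiv.ofBijective π hbij⟩


/-! ### the generators in `GL(2,3)` -/

def gI : GL (Fin 2) (ZMod 3) := ⟨!![0, 2; 1, 0], !![0, 1; 2, 0], by decide, by decide⟩
def gJ : GL (Fin 2) (ZMod 3) := ⟨!![1, 1; 1, 2], !![2, 2; 2, 1], by decide, by decide⟩
def gX : GL (Fin 2) (ZMod 3) := ⟨!![1, 1; 0, 1], !![1, 2; 0, 1], by decide, by decide⟩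
def gT : GL (Fin 2) (ZMod 3) := ⟨!![1, 2; 0, 2], !![1, 2; 0, 2], by decide, by decide⟩

theorem gI_pow : gI ^ 4 = 1 := by decide
theorem gI_sq : gI * gI ≠ 1 := by decide
theorem gJ_gI : gJ * gI = gI⁻¹ * gJ := by decide
theorem gJ_sq : gJ * gJ = gI * gI := by decide
theorem gX_gI : gX * gI * gX⁻¹ = gJ := by decide
theorem gX_gJ : gX * gJ * gX⁻¹ = gI * gJ := by decide
theorem gX_pow : gX ^ 3 = 1 := by decide
theorem gX_ne : gX ≠ 1 := by decide
theorem gT_sq : gT * gT = 1 := by decide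
theorem gT_gX : gT * gX * gT⁻¹ = gX⁻¹ := by decide
theorem gT_gI : gT * gI * gT⁻¹ = gJ⁻¹ := by decide

theorem card_GL23 : Nat.card (GL (Fin 2) (ZMod 3)) = 48 := by
  rw [Matrix.card_GL_field, ZMod.card]
  decide

theorem model_equiv_GL23 : Nonempty (Model ≃* GL (Fin 2) (ZMod 3)) :=
  model_equiv card_GL23 gI gJ gX gT gI_pow gI_sq gJ_gI gJ_sq gX_gI gX_gJ gX_pow gX_ne gT_sq
    gT_gX gT_gI

end Cfsg.Agent.Lib.Helper86.GL23R

namespace Cfsg.Agent.Lib.Helper86

/-- Piece R: recognition of `GL(2,3)` from generators and relations. -/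
theorem gl23_of_gens {H : Type*} [Group H] [Finite H] (hcard : Nat.card H = 48)
    (i j x t : H) (hi4 : i ^ 4 = 1) (hi2 : i * i ≠ 1) (hji : j * i = i⁻¹ * j)
    (hjj : j * j = i * i) (hxi : x * i * x⁻¹ = j) (hxj : x * j * x⁻¹ = i * j)
    (hx3 : x ^ 3 = 1) (hx1 : x ≠ 1) (ht2 : t * t = 1) (htx : t * x * t⁻¹ = x⁻¹)
    (hti : t * i * t⁻¹ = j⁻¹) : Nonempty (H ≃* GL (Fin 2) (ZMod 3)) := by
  obtain ⟨e₁⟩ := GL23R.model_equiv hcard i j x t hi4 hi2 hji hjj hxi hxj hx3 hx1 ht2 htx hti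
  obtain ⟨e₂⟩ := GL23R.model_equiv_GL23
  exact ⟨e₁.symm.trans e₂⟩

end Cfsg.Agent.Lib.Helper86
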