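import Mathlib
import Cfsg.Agent.Lib.Helper23.Syl
import Cfsg.Agent.Lib.Helper23.Syl2
import Cfsg.Agent.Lib.Helper76.SylPrime

set_option autoImplicit false

/-! S0496 piece N10TI: in a simple group of order 720 with ten Sylow 3-subgroups, distinct
Sylow 3-subgroups intersect trivially. -/

namespace Cfsg.Agent.S496

open Subgroup
open Cfsg.Agent.Lib.Helper23
open Cfsg.Agent.Lib.Helper76.SylPrime

theorem n10ti_mem_smul {G : Type*} [Group G] {p : ℕ} (g x : G) (R : Sylow p G) :
    x ∈ ((g • R : Sylow p G) : Subgroup G) ↔ g⁻¹ * x * g ∈ (R : Subgroup G) := by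
  rw [Sylow.coe_subgroup_smul, Subgroup.mem_pointwise_smul_iff_inv_smul_mem, MulAut.smul_def,
    ← map_inv, MulAut.conj_apply, inv_inv]

theorem n10ti_arith1 (d : ℕ) (hd : d ∣ 9) (hne : d ≠ 9) : d ≤ 3 := by
  have hle := Nat.le_of_dvd (by norm_num) hd
  interval_cases d <;> omega

theorem n10ti_arith2 (d : ℕ) (hd : d ∣ 9) (hle : d ≤ 3) (h1 : d ≠ 1) : d = 3 := by
  interval_cases d <;> first | rfl | omega

theorem n10_ti {G : Type*} [Group G] [Finite G] [IsSimpleGroup G] (h : Nat.card G = 720)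
    (h10 : Nat.card (Sylow 3 G) = 10) (P Q : Sylow 3 G) (hPQ : P ≠ Q) :
    (P : Subgroup G) ⊓ (Q : Subgroup G) = ⊥ := by
  classical
  have hp3 : Fact (Nat.Prime 3) := ⟨by norm_num⟩
  by_contra hne
  have h720 : Nat.card G = 3 ^ 2 * 80 := by rw [h]; norm_num
  have hc9 : ∀ R : Sylow 3 G, Nat.card (R : Subgroup G) = 9 := fun R => by
    have := sylow_card_of_eq h720 (by norm_num) R
    simpa using this
  have hcomm : ∀ R : Sylow 3 G, IsMulCommutative (R : Subgroup G) := fun R =>
    IsPGroup.isMulCommutative_of_card_eq_prime_sq (p := 3) (by rw [hc9 R]; norm_num)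
  have hG : ¬ IsMulCommutative G := not_comm_of_simple_of_not_prime (by rw [h]; norm_num)
  have hstar : ∀ R : Sylow 3 G, R ≠ P →
      Nat.card ((P : Subgroup G) ⊓ (R : Subgroup G) : Subgroup G) ≤ 3 := by
    intro R hR
    have hd : Nat.card ((P : Subgroup G) ⊓ (R : Subgroup G) : Subgroup G) ∣ 9 := by
      rw [← hc9 P]; exact Subgroup.card_dvd_of_le inf_le_left
    have hne9 : Nat.card ((P : Subgroup G) ⊓ (R : Subgroup G) : Subgroup G) ≠ 9 := by
      intro h9
      have e1 : (P : Subgroup G) ⊓ (R : Subgroup G) = (P : Subgroup G) :=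
        Subgroup.eq_of_le_of_card_ge inf_le_left (by rw [h9, hc9 P])
      have e2 : (P : Subgroup G) ⊓ (R : Subgroup G) = (R : Subgroup G) :=
        Subgroup.eq_of_le_of_card_ge inf_le_right (by rw [h9, hc9 R])
      exact hR (Sylow.ext (e2.symm.trans e1))
    exact n10ti_arith1 _ hd hne9
  set D : Subgroup G := (P : Subgroup G) ⊓ (Q : Subgroup G) with hD
  have hDP : D ≤ (P : Subgroup G) := inf_le_left
  have hDQ : D ≤ (Q : Subgroup G) := inf_le_right
  have hD3 : Nat.card D = 3 := by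
    have hd : Nat.card D ∣ 9 := by
      rw [← hc9 P]; exact Subgroup.card_dvd_of_le hDP
    exact n10ti_arith2 _ hd (hstar Q (Ne.symm hPQ)) (fun h1 => hne (Subgroup.eq_bot_of_card_eq D h1))
  let F : Set (Sylow 3 G) := {R | D ≤ (R : Subgroup G)}
  have hPF : P ∈ F := hDP
  have hQF : Q ∈ F := hDQ
  set N : Subgroup G := normalizer (D : Set G) with hN
  have hFN : ∀ R ∈ F, (R : Subgroup G) ≤ N := fun R hR => by
    have := hcomm R
    exact le_normalizer_of_le_of_comm hR
  have hNF : ∀ d ∈ N, ∀ R ∈ F, d • R ∈ F := by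
    intro d hd R hR x hx
    rw [n10ti_mem_smul]
    apply hR
    have hd' : d⁻¹ ∈ N := N.inv_mem hd
    have := (mem_normalizer_iff.mp hd' x).mp hx
    rwa [inv_inv] at this
  have hcardN := card_eq_of_orbit P N F hPF hNF hFN
  have hFmod : F.ncard % 3 = 1 :=
    ncard_mod_of_mem P F (fun x hx R hR => hNF x (hFN P hPF hx) R hR) hPF
  have hF2 : 2 ≤ F.ncard := by
    have h1 : ({P, Q} : Set (Sylow 3 G)) ⊆ F := by
      rintro R (rfl | rfl)
      · exact hPF
      · exact hQF
    have h2 := Set.ncard_le_ncard h1 (Set.toFinite F)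
    rwa [Set.ncard_pair hPQ] at h2
  have hF4 : 4 ≤ F.ncard := by omega
  have hDtop : D ≠ ⊤ := by
    intro ht
    have h1 : Nat.card D = Nat.card G := by rw [ht]; exact Subgroup.card_top
    omega
  have hNtop : N ≠ ⊤ := simple_normalizer_ne_top D hne hDtop
  have hfac := simple_two_mul_card_dvd_factorial hG N hNtop
  have hNi := N.card_mul_index
  have hN90 : Nat.card N ≤ 90 := by
    rw [h] at hfac hNi
    by_contra hcon
    push Not at hcon
    have hidx : N.index ≤ 7 := by
      by_contra h8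
      push Not at h8
      have h2 : 91 * 8 ≤ Nat.card N * N.index := Nat.mul_le_mul hcon h8
      omega
    have h5040 : N.index.factorial ∣ Nat.factorial 7 := Nat.factorial_dvd_factorial hidx
    have h3 : 2 * 720 ∣ Nat.factorial 7 := dvd_trans hfac h5040
    revert h3
    decide
  set NP : Subgroup G := normalizer ((P : Subgroup G) : Set G) with hNP
  set k := Nat.card (N ⊓ NP : Subgroup G) with hk
  have hk22 : k ≤ 22 := by
    by_contra hcon
    push Not at hcon
    have h2 : 4 * 23 ≤ F.ncard * k := Nat.mul_le_mul hF4 hcon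
    omega
  have h9k : 9 ∣ k := by
    rw [← hc9 P]
    exact Subgroup.card_dvd_of_le (le_inf (hFN P hPF) le_normalizer)
  have hk18 : k ≤ 18 := by omega
  have hNP72 : Nat.card NP = 72 := by
    have h1 : Nat.card NP * Nat.card (Sylow 3 G) = Nat.card G := card_normalizer_sylow_mul P
    rw [h10, h] at h1
    omega
  let K0 : Subgroup NP := N.subgroupOf NP
  have hK0 : Nat.card K0 = k := by
    have h1 : Nat.card (N.subgroupOf NP) = Nat.card ↥(NP ⊓ N) := by
      rw [← Subgroup.inf_subgroupOf_left]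
      exact Nat.card_congr (Subgroup.subgroupOfEquivOfLe inf_le_left).toEquiv
    rw [hk, inf_comm]
    exact h1
  have hidx : K0.index * k = 72 := by
    have h1 := K0.card_mul_index
    rw [hK0, hNP72] at h1
    rw [mul_comm]
    exact h1
  have hidx4 : 4 ≤ K0.index := by
    by_contra hcon
    push Not at hcon
    have h2 : K0.index * k ≤ 3 * 18 := Nat.mul_le_mul (by omega) hk18
    omega
  let A : Set (Sylow 3 G) := F \ {P}
  have hA3 : 3 ≤ A.ncard := by
    have h1 : A.ncard = F.ncard - 1 := Set.ncard_sdiff_singleton_of_mem hPF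
    omega
  have hclaim : ∀ g ∈ NP, ∀ R1 ∈ A, ∀ R2 ∈ A, g • R1 = R2 → ∀ x ∈ D, g * x * g⁻¹ ∈ D := by
    intro g hg R1 hR1 R2 hR2 hgR x hx
    have hPR2 : D = (P : Subgroup G) ⊓ (R2 : Subgroup G) := by
      apply Subgroup.eq_of_le_of_card_ge (le_inf hDP hR2.1)
      rw [hD3]
      exact hstar R2 hR2.2
    rw [hPR2]
    have e : g⁻¹ * (g * x * g⁻¹) * g = x := by group
    have h2 : g * x * g⁻¹ ∈ ((g • R1 : Sylow 3 G) : Subgroup G) := by
      rw [n10ti_mem_smul, e]
      exact hR1.1 hx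
    rw [hgR] at h2
    exact Subgroup.mem_inf.mpr ⟨(mem_normalizer_iff.mp hg x).mp (hDP hx), h2⟩
  have hclaim2 : ∀ g ∈ NP, ∀ R1 ∈ A, ∀ R2 ∈ A, g • R1 = R2 → g ∈ N := by
    intro g hg R1 hR1 R2 hR2 hgR
    rw [hN, mem_normalizer_iff]
    intro x
    constructor
    · exact hclaim g hg R1 hR1 R2 hR2 hgR x
    · intro hx
      have hgi : g⁻¹ • R2 = R1 := by rw [← hgR, inv_smul_smul]
      have h1 := hclaim g⁻¹ (NP.inv_mem hg) R2 hR2 R1 hR1 hgi _ hx
      have e : g⁻¹ * (g * x * g⁻¹) * g⁻¹⁻¹ = x := by group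
      rwa [e] at h1
  let φ : (NP ⧸ K0) × A → (({P}ᶜ : Set (Sylow 3 G)) : Type _) := fun x =>
    ⟨((Quotient.out x.1 : NP) : G) • (x.2 : Sylow 3 G), by
      intro hmem
      have hmem' : ((Quotient.out x.1 : NP) : G) • (x.2 : Sylow 3 G) = P := hmem
      have hfix : ((Quotient.out x.1 : NP) : G) • P = P :=
        Sylow.smul_eq_iff_mem_normalizer.mpr (Quotient.out x.1).2
      have h1 : (x.2 : Sylow 3 G) = P := by
        rw [← hfix] at hmem'
        exact MulAction.injective _ hmem'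
      exact x.2.2.2 h1⟩
  have hφ : Function.Injective φ := by
    rintro ⟨q, R1, hR1⟩ ⟨q', R2, hR2⟩ hqq
    have e : ((Quotient.out q : NP) : G) • R1 = ((Quotient.out q' : NP) : G) • R2 :=
      congrArg Subtype.val hqq
    have e2 : (((Quotient.out q')⁻¹ * Quotient.out q : NP) : G) • R1 = R2 := by
      rw [Subgroup.coe_mul, mul_smul, e, Subgroup.coe_inv, inv_smul_smul]
    have hmem : (Quotient.out q')⁻¹ * Quotient.out q ∈ K0 := by
      rw [Subgroup.mem_subgroupOf]
      exact hclaim2 _ ((Quotient.out q')⁻¹ * Quotient.out q).2 R1 hR1 R2 hR2 e2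
    have hq : q' = q := by
      rw [← QuotientGroup.out_eq' q', ← QuotientGroup.out_eq' q]
      exact QuotientGroup.eq.mpr hmem
    subst hq
    have h1 : R1 = R2 := MulAction.injective _ e
    subst h1
    rfl
  have hle := Nat.card_le_card_of_injective φ hφ
  rw [Nat.card_prod, Nat.card_coe_set_eq, Nat.card_coe_set_eq, Set.ncard_compl,
    Set.ncard_singleton, h10] at hle
  have h2 : 4 * 3 ≤ Nat.card (NP ⧸ K0) * A.ncard := Nat.mul_le_mul hidx4 hA3
  omega

end Cfsg.Agent.S496
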