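import Mathlib
import Cfsg.Agent.Lib.Helper93.Sl3Defs

set_option autoImplicit false

/-! Piece BSTEP of the S2287 project (helper93): `T * YB` is closed under right multiplication
by the generators of the Borel subgroup. -/

namespace Cfsg.Agent.Lib.Helper93.Sl3

section level3

variable {P : Type*} [Group P] {q : ℕ} {U T : Subgroup P} {t c : P}

/-- BSTEP -/
theorem b_step (D : BNData q U T t c) (N : NAct U T t c) :
    ∀ y ∈ YB U t c, ∀ s ∈ SB U T t c, ∃ a ∈ T, ∃ y' ∈ YB U t c, y * s = a * y' := by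
  rintro y ⟨v, hv, w, hw, z, hz, rfl⟩ s hs
  rcases hs with ((hs | hs) | hs) | hs
  · -- `s ∈ U`
    obtain ⟨k, hkdef⟩ : ∃ k, k = s⁻¹ * w * s * w⁻¹ := ⟨_, rfl⟩
    have hk : k ∈ cj (t * c) U := by
      have h := D.st s⁻¹ (U.inv_mem hs) w hw
      rw [inv_inv] at h
      rw [hkdef]
      exact h
    have h1 : z * s = s * z := (D.comm1 s hs z hz).eq.symm
    have h2 : w * k = k * w := (D.comm2 w hw k hk).eq
    refine ⟨1, T.one_mem, v * s * w * (k * z),
      ⟨v * s, U.mul_mem hv hs, w, hw, k * z, (cj (t * c) U).mul_mem hk hz, rfl⟩, ?_⟩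
    calc v * w * z * s = v * w * (z * s) := by group
      _ = v * w * (s * z) := by rw [h1]
      _ = v * s * (k * w) * z := by rw [hkdef]; group
      _ = v * s * (w * k) * z := by rw [h2]
      _ = 1 * (v * s * w * (k * z)) := by group
  · -- `s ∈ cj c U`
    have h1 : z * s = s * z := (D.comm2 s hs z hz).eq.symm
    refine ⟨1, T.one_mem, v * (w * s) * z,
      ⟨v, hv, w * s, (cj c U).mul_mem hw hs, z, hz, rfl⟩, ?_⟩
    calc v * w * z * s = v * w * (z * s) := by group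
      _ = v * w * (s * z) := by rw [h1]
      _ = 1 * (v * (w * s) * z) := by group
  · -- `s ∈ cj (t * c) U`
    refine ⟨1, T.one_mem, v * w * (z * s),
      ⟨v, hv, w, hw, z * s, (cj (t * c) U).mul_mem hz hs, rfl⟩, ?_⟩
    group
  · -- `s ∈ T`
    have hsi : s⁻¹ ∈ T := T.inv_mem hs
    have hv' : s⁻¹ * v * s ∈ U := by
      have h := D.TU s⁻¹ hsi v hv
      rwa [inv_inv] at h
    have hw' : s⁻¹ * w * s ∈ cj c U := by
      have h : s⁻¹ * w * s⁻¹⁻¹ ∈ cj s⁻¹ (cj c U) := conj_mem_cj hw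
      rwa [inv_inv, N.TV s⁻¹ hsi] at h
    have hz' : s⁻¹ * z * s ∈ cj (t * c) U := by
      have h : s⁻¹ * z * s⁻¹⁻¹ ∈ cj s⁻¹ (cj (t * c) U) := conj_mem_cj hz
      rwa [inv_inv, N.TZ s⁻¹ hsi] at h
    refine ⟨s, hs, s⁻¹ * v * s * (s⁻¹ * w * s) * (s⁻¹ * z * s),
      ⟨_, hv', _, hw', _, hz', rfl⟩, ?_⟩
    group

end level3

end Cfsg.Agent.Lib.Helper93.Sl3
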