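import Mathlib
import Cfsg.Agent.Lib.Helper93.Sl3Defs

set_option autoImplicit false

/-! Piece QSTEP of the S2287 project (helper93): `B * YQ` is closed under right multiplication
by the generators of the parabolic subgroup. -/

namespace Cfsg.Agent.Lib.Helper93.Sl3

section level3

variable {P : Type*} [Group P] {q : ℕ} {U T : Subgroup P} {t c : P}

/-- QSTEP -/
theorem q_step (D : BNData q U T t c) (N : NAct U T t c) :
    ∀ y ∈ YQ U t, ∀ s ∈ SB U T t c ∪ {t}, ∃ a ∈ Bsub U T t c, ∃ y' ∈ YQ U t,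
      y * s = a * y' := by
  have hU : ∀ x ∈ U, x ∈ Bsub U T t c := fun x hx =>
    Subgroup.subset_closure (Or.inl (Or.inl (Or.inl hx)))
  have hV : ∀ x ∈ cj c U, x ∈ Bsub U T t c := fun x hx =>
    Subgroup.subset_closure (Or.inl (Or.inl (Or.inr hx)))
  have hZ : ∀ x ∈ cj (t * c) U, x ∈ Bsub U T t c := fun x hx =>
    Subgroup.subset_closure (Or.inl (Or.inr hx))
  have hT : ∀ x ∈ T, x ∈ Bsub U T t c := fun x hx =>
    Subgroup.subset_closure (Or.inr hx)
  have h1Q : (1 : P) ∈ YQ U t := Or.inl rfl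
  have htQ : ∀ v ∈ U, t * v ∈ YQ U t := fun v hv => Or.inr ⟨v, hv, rfl⟩
  intro y hy s hs
  rcases hy with hy | ⟨v, hv, rfl⟩
  · -- `y = 1`
    have hy1 : y = 1 := hy
    subst hy1
    rcases hs with hs | hs
    · exact ⟨s, Subgroup.subset_closure hs, 1, h1Q, by group⟩
    · have hst : s = t := hs
      subst hst
      exact ⟨1, one_mem _, s * 1, htQ 1 U.one_mem, by group⟩
  · -- `y = t * v`
    rcases hs with (((hs | hs) | hs) | hs) | hs
    · -- `s ∈ U`
      exact ⟨1, one_mem _, t * (v * s), htQ _ (U.mul_mem hv hs), by group⟩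
    · -- `s ∈ cj c U`
      have hk : v * s * v⁻¹ * s⁻¹ ∈ cj (t * c) U := D.st v hv s hs
      have hk' : t * (v * s * v⁻¹ * s⁻¹) * t⁻¹ ∈ cj c U := by
        have h : t * (v * s * v⁻¹ * s⁻¹) * t⁻¹ ∈ cj t (cj (t * c) U) := conj_mem_cj hk
        rwa [N.tZ] at h
      have hs' : t * s * t⁻¹ ∈ cj (t * c) U := by
        have h : t * s * t⁻¹ ∈ cj t (cj c U) := conj_mem_cj hs
        rwa [← cj_mul] at h
      refine ⟨t * (v * s * v⁻¹ * s⁻¹) * t⁻¹ * (t * s * t⁻¹),
        mul_mem (hV _ hk') (hZ _ hs'), t * v, htQ v hv, by group⟩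
    · -- `s ∈ cj (t * c) U`
      have h1 : v * s = s * v := (D.comm1 v hv s hs).eq
      have hs' : t * s * t⁻¹ ∈ cj c U := by
        have h : t * s * t⁻¹ ∈ cj t (cj (t * c) U) := conj_mem_cj hs
        rwa [N.tZ] at h
      refine ⟨t * s * t⁻¹, hV _ hs', t * v, htQ v hv, ?_⟩
      calc t * v * s = t * (v * s) := by group
        _ = t * (s * v) := by rw [h1]
        _ = t * s * t⁻¹ * (t * v) := by group
    · -- `s ∈ T`
      have hsi : s⁻¹ ∈ T := T.inv_mem hs
      have hv' : s⁻¹ * v * s ∈ U := by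
        have h := D.TU s⁻¹ hsi v hv
        rwa [inv_inv] at h
      exact ⟨t * s * t⁻¹, hT _ (D.Tt s hs), t * (s⁻¹ * v * s), htQ _ hv', by group⟩
    · -- `s = t`
      have hst : s = t := hs
      subst hst
      by_cases hv1 : v = 1
      · subst hv1
        refine ⟨s ^ 2, hT _ D.t2, 1, h1Q, ?_⟩
        rw [pow_two]; group
      · obtain ⟨w, hw, τ, hτ, v', hv', hEq⟩ := D.rank1 v hv hv1
        have hw' : s ^ 2 * w * (s ^ 2)⁻¹ ∈ U := D.TU (s ^ 2) D.t2 w hw
        refine ⟨s ^ 2 * w * (s ^ 2)⁻¹ * (s * τ * s⁻¹),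
          mul_mem (hU _ hw') (hT _ (D.Tt τ hτ)), s * v', htQ v' hv', ?_⟩
        calc s * v * s = s * (v * s) := by group
          _ = s * (s * w * s⁻¹ * τ * v') := by rw [hEq]
          _ = s ^ 2 * w * (s ^ 2)⁻¹ * (s * τ * s⁻¹) * (s * v') := by
              rw [pow_two]; group

end level3

end Cfsg.Agent.Lib.Helper93.Sl3
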