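import Mathlib
import Cfsg.Agent.Lib.Helper93.Sl3Defs

set_option autoImplicit false

/-! Piece YCARD of the S2287 project (helper93): sizes of the coset representative sets. -/

namespace Cfsg.Agent.Lib.Helper93.Sl3

section level3

variable {P : Type*} [Group P] {q : ℕ} {U T : Subgroup P} {t c : P}

theorem h86_ycard_fin_cj (D : BNData q U T t c) (n : P) :
    ((cj n U : Subgroup P) : Set P).Finite ∧ ((cj n U : Subgroup P) : Set P).ncard ≤ q := by
  have hU := D.finU
  have hfin : Finite (cj n U) := by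
    unfold cj
    exact Finite.of_equiv U (U.equivMapOfInjective _ (MulAut.conj n).injective).toEquiv
  refine ⟨Set.toFinite _, ?_⟩
  have h1 : ((cj n U : Subgroup P) : Set P).ncard = Nat.card (cj n U) :=
    (Nat.card_coe_set_eq _).symm
  rw [h1, card_cj]
  exact D.cardU

theorem h86_ycard_fin_U (D : BNData q U T t c) :
    ((U : Subgroup P) : Set P).Finite ∧ ((U : Subgroup P) : Set P).ncard ≤ q := by
  have h := h86_ycard_fin_cj D 1
  rwa [cj_one] at h

/-- YCARD -/
theorem y_card (D : BNData q U T t c) :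
    (YB U t c).Finite ∧ (YB U t c).ncard ≤ q ^ 3 ∧ (YQ U t).Finite ∧ (YQ U t).ncard ≤ q + 1 ∧
    (YP U t c).Finite ∧ (YP U t c).ncard ≤ q ^ 2 + q + 1 := by
  obtain ⟨fU, cU⟩ := h86_ycard_fin_U D
  obtain ⟨fV, cV⟩ := h86_ycard_fin_cj D c
  obtain ⟨fZ, cZ⟩ := h86_ycard_fin_cj D (t * c)
  -- YB
  have hB : YB U t c ⊆ (fun p : P × P × P => p.1 * p.2.1 * p.2.2) ''
      ((U : Set P) ×ˢ ((cj c U : Set P) ×ˢ (cj (t * c) U : Set P))) := by
    rintro y ⟨v, hv, w, hw, z, hz, rfl⟩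
    exact ⟨(v, w, z), ⟨hv, hw, hz⟩, rfl⟩
  have fB3 : ((U : Set P) ×ˢ ((cj c U : Set P) ×ˢ (cj (t * c) U : Set P))).Finite :=
    fU.prod (fV.prod fZ)
  have fBi := fB3.image (fun p : P × P × P => p.1 * p.2.1 * p.2.2)
  have cB : (YB U t c).ncard ≤ q ^ 3 := by
    calc (YB U t c).ncard ≤ _ := Set.ncard_le_ncard hB fBi
      _ ≤ ((U : Set P) ×ˢ ((cj c U : Set P) ×ˢ (cj (t * c) U : Set P))).ncard :=
          Set.ncard_image_le fB3
      _ = ((U : Set P)).ncard * (((cj c U : Set P)).ncard * ((cj (t * c) U : Set P)).ncard) := by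
          rw [Set.ncard_prod, Set.ncard_prod]
      _ ≤ q * (q * q) := Nat.mul_le_mul cU (Nat.mul_le_mul cV cZ)
      _ = q ^ 3 := by ring
  -- YQ
  have hQ : YQ U t ⊆ {1} ∪ (fun v : P => t * v) '' (U : Set P) := by
    rintro y (hy | ⟨v, hv, rfl⟩)
    · exact Or.inl hy
    · exact Or.inr ⟨v, hv, rfl⟩
  have fQi : (({1} : Set P) ∪ (fun v : P => t * v) '' (U : Set P)).Finite :=
    (Set.finite_singleton 1).union (fU.image _)
  have cQ : (YQ U t).ncard ≤ q + 1 := by
    calc (YQ U t).ncard ≤ _ := Set.ncard_le_ncard hQ fQi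
      _ ≤ ({1} : Set P).ncard + ((fun v : P => t * v) '' (U : Set P)).ncard :=
          Set.ncard_union_le _ _
      _ ≤ 1 + ((U : Set P)).ncard := by
          rw [Set.ncard_singleton]
          exact Nat.add_le_add_left (Set.ncard_image_le fU) 1
      _ ≤ q + 1 := by omega
  -- YP
  have hP : YP U t c ⊆ ({1} ∪ (fun w : P => c * w) '' (cj c U : Set P)) ∪
      (fun p : P × P => c⁻¹ * p.1 * p.2) '' ((U : Set P) ×ˢ (cj (t * c) U : Set P)) := by
    rintro y ((hy | ⟨w, hw, rfl⟩) | ⟨v, hv, z, hz, rfl⟩)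
    · exact Or.inl (Or.inl hy)
    · exact Or.inl (Or.inr ⟨w, hw, rfl⟩)
    · exact Or.inr ⟨(v, z), ⟨hv, hz⟩, rfl⟩
  have fP2 : ((U : Set P) ×ˢ (cj (t * c) U : Set P)).Finite := fU.prod fZ
  have fP1 : (({1} : Set P) ∪ (fun w : P => c * w) '' (cj c U : Set P)).Finite :=
    (Set.finite_singleton 1).union (fV.image _)
  have fPi := fP1.union (fP2.image (fun p : P × P => c⁻¹ * p.1 * p.2))
  have cP : (YP U t c).ncard ≤ q ^ 2 + q + 1 := by
    calc (YP U t c).ncard ≤ _ := Set.ncard_le_ncard hP fPi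
      _ ≤ (({1} : Set P) ∪ (fun w : P => c * w) '' (cj c U : Set P)).ncard +
          ((fun p : P × P => c⁻¹ * p.1 * p.2) '' ((U : Set P) ×ˢ (cj (t * c) U : Set P))).ncard :=
          Set.ncard_union_le _ _
      _ ≤ (({1} : Set P).ncard + ((fun w : P => c * w) '' (cj c U : Set P)).ncard) +
          ((U : Set P) ×ˢ (cj (t * c) U : Set P)).ncard :=
          Nat.add_le_add (Set.ncard_union_le _ _) (Set.ncard_image_le fP2)
      _ ≤ (1 + q) + q * q := by
          rw [Set.ncard_singleton, Set.ncard_prod]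
          exact Nat.add_le_add (Nat.add_le_add_left ((Set.ncard_image_le fV).trans cV) 1)
            (Nat.mul_le_mul cU cZ)
      _ = q ^ 2 + q + 1 := by ring
  exact ⟨fBi.subset hB, cB, fQi.subset hQ, cQ, fPi.subset hP, cP⟩

end level3

end Cfsg.Agent.Lib.Helper93.Sl3
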