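import Mathlib
import Cfsg.Agent.Lib.Helper93.Sp4Defs

set_option autoImplicit false

/-! Piece SP4-BSTEP of the S2293 project (helper93): `T * YB` is closed under right multiplication
by the generators of the Borel subgroup. -/

namespace Cfsg.Agent.Lib.Helper93.Sp4

open Cfsg.Agent.Lib.Helper93.Sl3 (cj mem_cj conj_mem_cj)

section level3

variable {P : Type*} [Group P] {q : ℕ} {Ua Ub T : Subgroup P} {ta tb : P}

/-- BSTEP -/
theorem c2_b_step (D : C2Data q Ua Ub T ta tb) (N : C2Act Ua Ub T ta tb) :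
    ∀ y ∈ YB Ua Ub ta tb, ∀ s ∈ SB Ua Ub T ta tb, ∃ a ∈ T, ∃ y' ∈ YB Ua Ub ta tb,
      y * s = a * y' := by
  rintro y ⟨v, hv, x, hx, z1, hz1, z2, hz2, rfl⟩ s hs
  rcases hs with (((hs | hs) | hs) | hs) | hs
  · -- `s ∈ Ua`
    have hsi : s⁻¹ ∈ Ua := Ua.inv_mem hs
    obtain ⟨c, hcdef⟩ : ∃ c, c = s⁻¹ * z1 * s * z1⁻¹ := ⟨_, rfl⟩
    have hc : c ∈ cj ta Ub := by
      have h := D.c2 s⁻¹ hsi z1 hz1
      rw [inv_inv] at h
      rw [hcdef]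
      exact h
    obtain ⟨w1, hw1, w2, hw2, hw⟩ := D.c1 s⁻¹ hsi x hx
    rw [inv_inv] at hw
    have e1 : z2 * s = s * z2 := (D.c3a s hs z2 hz2).eq.symm
    have e2 : x * w1 = w1 * x := (D.c3b x hx w1 hw1).eq
    have e3 : x * w2 = w2 * x := (D.c3c x hx w2 hw2).eq
    have e4 : z1 * w2 = w2 * z1 := (D.c3d z1 hz1 w2 hw2).eq
    have e5 : z1 * c = c * z1 := (D.c3d z1 hz1 c hc).eq
    refine ⟨1, T.one_mem, v * s * x * (w1 * z1) * (w2 * c * z2),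
      ⟨v * s, Ua.mul_mem hv hs, x, hx, w1 * z1, (cj tb Ua).mul_mem hw1 hz1, w2 * c * z2,
        (cj ta Ub).mul_mem ((cj ta Ub).mul_mem hw2 hc) hz2, rfl⟩, ?_⟩
    calc v * x * z1 * z2 * s = v * x * z1 * (z2 * s) := by group
      _ = v * x * z1 * (s * z2) := by rw [e1]
      _ = v * s * (s⁻¹ * x * s * x⁻¹) * x * (s⁻¹ * z1 * s * z1⁻¹) * z1 * z2 := by group
      _ = v * s * (w1 * w2) * x * c * z1 * z2 := by rw [hw, ← hcdef]
      _ = v * s * w1 * (w2 * x) * (c * z1) * z2 := by group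
      _ = v * s * w1 * (x * w2) * (z1 * c) * z2 := by rw [e3, e5]
      _ = v * s * (w1 * x) * (w2 * z1) * c * z2 := by group
      _ = v * s * (x * w1) * (z1 * w2) * c * z2 := by rw [e2, e4]
      _ = 1 * (v * s * x * (w1 * z1) * (w2 * c * z2)) := by group
  · -- `s ∈ Ub`
    have e1 : s * z1 = z1 * s := (D.c3b s hs z1 hz1).eq
    have e2 : s * z2 = z2 * s := (D.c3c s hs z2 hz2).eq
    refine ⟨1, T.one_mem, v * (x * s) * z1 * z2,
      ⟨v, hv, x * s, Ub.mul_mem hx hs, z1, hz1, z2, hz2, rfl⟩, ?_⟩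
    calc v * x * z1 * z2 * s = v * x * z1 * (z2 * s) := by group
      _ = v * x * z1 * (s * z2) := by rw [e2]
      _ = v * x * (z1 * s) * z2 := by group
      _ = v * x * (s * z1) * z2 := by rw [e1]
      _ = 1 * (v * (x * s) * z1 * z2) := by group
  · -- `s ∈ cj tb Ua`
    have e1 : s * z2 = z2 * s := (D.c3d s hs z2 hz2).eq
    refine ⟨1, T.one_mem, v * x * (z1 * s) * z2,
      ⟨v, hv, x, hx, z1 * s, (cj tb Ua).mul_mem hz1 hs, z2, hz2, rfl⟩, ?_⟩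
    calc v * x * z1 * z2 * s = v * x * z1 * (z2 * s) := by group
      _ = v * x * z1 * (s * z2) := by rw [e1]
      _ = 1 * (v * x * (z1 * s) * z2) := by group
  · -- `s ∈ cj ta Ub`
    refine ⟨1, T.one_mem, v * x * z1 * (z2 * s),
      ⟨v, hv, x, hx, z1, hz1, z2 * s, (cj ta Ub).mul_mem hz2 hs, rfl⟩, ?_⟩
    group
  · -- `s ∈ T`
    have hsi : s⁻¹ ∈ T := T.inv_mem hs
    have hv' : s⁻¹ * v * s ∈ Ua := by
      have h := D.TUa s⁻¹ hsi v hv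
      rwa [inv_inv] at h
    have hx' : s⁻¹ * x * s ∈ Ub := by
      have h := D.TUb s⁻¹ hsi x hx
      rwa [inv_inv] at h
    have hz1' : s⁻¹ * z1 * s ∈ cj tb Ua := by
      have h : s⁻¹ * z1 * s⁻¹⁻¹ ∈ cj s⁻¹ (cj tb Ua) := conj_mem_cj hz1
      rwa [inv_inv, N.TUab s⁻¹ hsi] at h
    have hz2' : s⁻¹ * z2 * s ∈ cj ta Ub := by
      have h : s⁻¹ * z2 * s⁻¹⁻¹ ∈ cj s⁻¹ (cj ta Ub) := conj_mem_cj hz2
      rwa [inv_inv, N.TUaab s⁻¹ hsi] at h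
    refine ⟨s, hs, s⁻¹ * v * s * (s⁻¹ * x * s) * (s⁻¹ * z1 * s) * (s⁻¹ * z2 * s),
      ⟨_, hv', _, hx', _, hz1', _, hz2', rfl⟩, ?_⟩
    group

end level3

end Cfsg.Agent.Lib.Helper93.Sp4
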