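import Mathlib
import Cfsg.Agent.Lib.Helper93.Sp4Defs

set_option autoImplicit false

/-! Piece SP4-P3A of the S2293 project (helper93): the third family of coset representatives of
`Q` in `P` is stable (modulo `Q` on the left) under right multiplication by `Ua`, `Ub`, `T`. -/

namespace Cfsg.Agent.Lib.Helper93.Sp4

open Cfsg.Agent.Lib.Helper93.Sl3 (cj mem_cj conj_mem_cj)

section level3

variable {P : Type*} [Group P] {q : ℕ} {Ua Ub T : Subgroup P} {ta tb : P}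

/-- P3A -/
theorem c2_p_step3a (D : C2Data q Ua Ub T ta tb) (N : C2Act Ua Ub T ta tb) :
    ∀ y ∈ YP3 Ua Ub ta tb, ∀ s ∈ ((Ua : Set P) ∪ (Ub : Set P) ∪ (T : Set P)),
      ∃ a ∈ Qsub Ua Ub T ta tb, ∃ y' ∈ YP3 Ua Ub ta tb, y * s = a * y' := by
  rintro y ⟨x, hx, z1, hz1, z2, hz2, rfl⟩ s hs
  have hUaQ : ∀ g ∈ Ua, g ∈ Qsub Ua Ub T ta tb := fun g hg =>
    Subgroup.subset_closure (Or.inl (Or.inl (Or.inl (Or.inl (Or.inl hg)))))
  have hTQ : ∀ g ∈ T, g ∈ Qsub Ua Ub T ta tb := fun g hg =>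
    Subgroup.subset_closure (Or.inl (Or.inr hg))
  rcases hs with (hs | hs) | hs
  · -- `s ∈ Ua`
    have hsi : s⁻¹ ∈ Ua := Ua.inv_mem hs
    obtain ⟨c, hcdef⟩ : ∃ c, c = s⁻¹ * z1 * s * z1⁻¹ := ⟨_, rfl⟩
    have hc : c ∈ cj ta Ub := by
      have h := D.c2 s⁻¹ hsi z1 hz1
      rw [inv_inv] at h
      rw [hcdef]
      exact h
    obtain ⟨w1, hw1, w2, hw2, hw⟩ := D.c1 s⁻¹ hsi x hx
    rw [inv_inv] at hw
    have e1 : z2 * s = s * z2 := (D.c3a s hs z2 hz2).eq.symm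
    have e2 : x * w1 = w1 * x := (D.c3b x hx w1 hw1).eq
    have e3 : x * w2 = w2 * x := (D.c3c x hx w2 hw2).eq
    have e4 : z1 * w2 = w2 * z1 := (D.c3d z1 hz1 w2 hw2).eq
    have e5 : z1 * c = c * z1 := (D.c3d z1 hz1 c hc).eq
    have hconj : tb * ta * tb * s * (tb * ta * tb)⁻¹ ∈ Ua := by
      have h1 : tb * s * tb⁻¹ ∈ cj tb Ua := conj_mem_cj hs
      have h2 : ta * (tb * s * tb⁻¹) * ta⁻¹ ∈ cj ta (cj tb Ua) := conj_mem_cj h1
      rw [D.n1] at h2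
      have h3 : tb * (ta * (tb * s * tb⁻¹) * ta⁻¹) * tb⁻¹ ∈ cj tb (cj tb Ua) := conj_mem_cj h2
      rw [N.tb_ab] at h3
      have h4 : tb * ta * tb * s * (tb * ta * tb)⁻¹ =
          tb * (ta * (tb * s * tb⁻¹) * ta⁻¹) * tb⁻¹ := by group
      rw [h4]
      exact h3
    refine ⟨tb * ta * tb * s * (tb * ta * tb)⁻¹, hUaQ _ hconj,
      tb * ta * tb * x * (w1 * z1) * (w2 * c * z2),
      ⟨x, hx, w1 * z1, (cj tb Ua).mul_mem hw1 hz1, w2 * c * z2,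
        (cj ta Ub).mul_mem ((cj ta Ub).mul_mem hw2 hc) hz2, rfl⟩, ?_⟩
    calc tb * ta * tb * x * z1 * z2 * s = tb * ta * tb * x * z1 * (z2 * s) := by group
      _ = tb * ta * tb * x * z1 * (s * z2) := by rw [e1]
      _ = tb * ta * tb * s * (s⁻¹ * x * s * x⁻¹) * x * (s⁻¹ * z1 * s * z1⁻¹) * z1 * z2 := by
          group
      _ = tb * ta * tb * s * (w1 * w2) * x * c * z1 * z2 := by rw [hw, ← hcdef]
      _ = tb * ta * tb * s * w1 * (w2 * x) * (c * z1) * z2 := by group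
      _ = tb * ta * tb * s * w1 * (x * w2) * (z1 * c) * z2 := by rw [e3, e5]
      _ = tb * ta * tb * s * (w1 * x) * (w2 * z1) * c * z2 := by group
      _ = tb * ta * tb * s * (x * w1) * (z1 * w2) * c * z2 := by rw [e2, e4]
      _ = tb * ta * tb * s * (tb * ta * tb)⁻¹ *
          (tb * ta * tb * x * (w1 * z1) * (w2 * c * z2)) := by group
  · -- `s ∈ Ub`
    have e1 : s * z1 = z1 * s := (D.c3b s hs z1 hz1).eq
    have e2 : s * z2 = z2 * s := (D.c3c s hs z2 hz2).eq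
    refine ⟨1, Subgroup.one_mem _, tb * ta * tb * (x * s) * z1 * z2,
      ⟨x * s, Ub.mul_mem hx hs, z1, hz1, z2, hz2, rfl⟩, ?_⟩
    calc tb * ta * tb * x * z1 * z2 * s = tb * ta * tb * x * z1 * (z2 * s) := by group
      _ = tb * ta * tb * x * z1 * (s * z2) := by rw [e2]
      _ = tb * ta * tb * x * (z1 * s) * z2 := by group
      _ = tb * ta * tb * x * (s * z1) * z2 := by rw [e1]
      _ = 1 * (tb * ta * tb * (x * s) * z1 * z2) := by group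
  · -- `s ∈ T`
    have hsi : s⁻¹ ∈ T := T.inv_mem hs
    have hx' : s⁻¹ * x * s ∈ Ub := by
      have h := D.TUb s⁻¹ hsi x hx
      rwa [inv_inv] at h
    have hz1' : s⁻¹ * z1 * s ∈ cj tb Ua := by
      have h : s⁻¹ * z1 * s⁻¹⁻¹ ∈ cj s⁻¹ (cj tb Ua) := conj_mem_cj hz1
      rwa [inv_inv, N.TUab s⁻¹ hsi] at h
    have hz2' : s⁻¹ * z2 * s ∈ cj ta Ub := by
      have h : s⁻¹ * z2 * s⁻¹⁻¹ ∈ cj s⁻¹ (cj ta Ub) := conj_mem_cj hz2
      rwa [inv_inv, N.TUaab s⁻¹ hsi] at h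
    have hconj : tb * ta * tb * s * (tb * ta * tb)⁻¹ ∈ T := by
      have h3 := D.Ttb _ (D.Tta _ (D.Ttb s hs))
      have h4 : tb * ta * tb * s * (tb * ta * tb)⁻¹ =
          tb * (ta * (tb * s * tb⁻¹) * ta⁻¹) * tb⁻¹ := by group
      rw [h4]
      exact h3
    refine ⟨tb * ta * tb * s * (tb * ta * tb)⁻¹, hTQ _ hconj,
      tb * ta * tb * (s⁻¹ * x * s) * (s⁻¹ * z1 * s) * (s⁻¹ * z2 * s),
      ⟨_, hx', _, hz1', _, hz2', rfl⟩, ?_⟩
    group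

end level3

end Cfsg.Agent.Lib.Helper93.Sp4
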