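import Mathlib
import Cfsg.Agent.Lib.Helper93.Sp4Defs

set_option autoImplicit false

/-! Piece SP4-YCARD of the S2293 project (helper93): sizes of the coset representative sets. -/

namespace Cfsg.Agent.Lib.Helper93.Sp4

open Cfsg.Agent.Lib.Helper93.Sl3 (cj mem_cj conj_mem_cj cj_one card_cj)

section level3

variable {P : Type*} [Group P] {q : ℕ} {Ua Ub T : Subgroup P} {ta tb : P}

theorem h86_c2_fin_cj (U : Subgroup P) (hfin : Finite U) (hcard : Nat.card U ≤ q) (n : P) :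
    ((cj n U : Subgroup P) : Set P).Finite ∧ ((cj n U : Subgroup P) : Set P).ncard ≤ q := by
  have hfin' : Finite (cj n U) := by
    unfold cj
    exact Finite.of_equiv U (U.equivMapOfInjective _ (MulAut.conj n).injective).toEquiv
  refine ⟨Set.toFinite _, ?_⟩
  have h1 : ((cj n U : Subgroup P) : Set P).ncard = Nat.card (cj n U) :=
    (Nat.card_coe_set_eq _).symm
  rw [h1, card_cj]
  exact hcard

theorem h86_c2_fin_U (U : Subgroup P) (hfin : Finite U) (hcard : Nat.card U ≤ q) :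
    ((U : Subgroup P) : Set P).Finite ∧ ((U : Subgroup P) : Set P).ncard ≤ q := by
  have h := h86_c2_fin_cj U hfin hcard 1
  rwa [cj_one] at h

/-- YCARD -/
theorem c2_y_card (D : C2Data q Ua Ub T ta tb) :
    (YB Ua Ub ta tb).Finite ∧ (YB Ua Ub ta tb).ncard ≤ q ^ 4 ∧
    (YQ Ua ta).Finite ∧ (YQ Ua ta).ncard ≤ q + 1 ∧
    (YP Ua Ub ta tb).Finite ∧ (YP Ua Ub ta tb).ncard ≤ q ^ 3 + q ^ 2 + q + 1 := by
  obtain ⟨fA, cA⟩ := h86_c2_fin_U Ua D.finUa D.cardUa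
  obtain ⟨fB, cB⟩ := h86_c2_fin_U Ub D.finUb D.cardUb
  obtain ⟨fAB, cAB⟩ := h86_c2_fin_cj Ua D.finUa D.cardUa tb
  obtain ⟨fAAB, cAAB⟩ := h86_c2_fin_cj Ub D.finUb D.cardUb ta
  -- YB
  have hYB : YB Ua Ub ta tb ⊆ (fun p : P × P × P × P => p.1 * p.2.1 * p.2.2.1 * p.2.2.2) ''
      ((Ua : Set P) ×ˢ ((Ub : Set P) ×ˢ ((cj tb Ua : Set P) ×ˢ (cj ta Ub : Set P)))) := by
    rintro y ⟨v, hv, x, hx, z1, hz1, z2, hz2, rfl⟩
    exact ⟨(v, x, z1, z2), ⟨hv, hx, hz1, hz2⟩, rfl⟩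
  have fB4 : ((Ua : Set P) ×ˢ ((Ub : Set P) ×ˢ ((cj tb Ua : Set P) ×ˢ (cj ta Ub : Set P)))).Finite :=
    fA.prod (fB.prod (fAB.prod fAAB))
  have fBi := fB4.image (fun p : P × P × P × P => p.1 * p.2.1 * p.2.2.1 * p.2.2.2)
  have cYB : (YB Ua Ub ta tb).ncard ≤ q ^ 4 := by
    calc (YB Ua Ub ta tb).ncard ≤ _ := Set.ncard_le_ncard hYB fBi
      _ ≤ ((Ua : Set P) ×ˢ ((Ub : Set P) ×ˢ ((cj tb Ua : Set P) ×ˢ (cj ta Ub : Set P)))).ncard :=
          Set.ncard_image_le fB4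
      _ = ((Ua : Set P)).ncard * (((Ub : Set P)).ncard *
            (((cj tb Ua : Set P)).ncard * ((cj ta Ub : Set P)).ncard)) := by
          rw [Set.ncard_prod, Set.ncard_prod, Set.ncard_prod]
      _ ≤ q * (q * (q * q)) :=
          Nat.mul_le_mul cA (Nat.mul_le_mul cB (Nat.mul_le_mul cAB cAAB))
      _ = q ^ 4 := by ring
  -- YQ
  have hYQ : YQ Ua ta ⊆ {1} ∪ (fun v : P => ta * v) '' (Ua : Set P) := by
    rintro y (hy | ⟨v, hv, rfl⟩)
    · exact Or.inl hy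
    · exact Or.inr ⟨v, hv, rfl⟩
  have fQi : (({1} : Set P) ∪ (fun v : P => ta * v) '' (Ua : Set P)).Finite :=
    (Set.finite_singleton 1).union (fA.image _)
  have cYQ : (YQ Ua ta).ncard ≤ q + 1 := by
    calc (YQ Ua ta).ncard ≤ _ := Set.ncard_le_ncard hYQ fQi
      _ ≤ ({1} : Set P).ncard + ((fun v : P => ta * v) '' (Ua : Set P)).ncard :=
          Set.ncard_union_le _ _
      _ ≤ 1 + ((Ua : Set P)).ncard := by
          rw [Set.ncard_singleton]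
          exact Nat.add_le_add_left (Set.ncard_image_le fA) 1
      _ ≤ q + 1 := by omega
  -- YP
  have h1 : YP1 Ub tb ⊆ (fun x : P => tb * x) '' (Ub : Set P) := by
    rintro y ⟨x, hx, rfl⟩
    exact ⟨x, hx, rfl⟩
  have f1 := fB.image (fun x : P => tb * x)
  have c1 : (YP1 Ub tb).ncard ≤ q :=
    (Set.ncard_le_ncard h1 f1).trans ((Set.ncard_image_le fB).trans cB)
  have h2 : YP2 Ua Ub ta tb ⊆ (fun p : P × P => tb * ta * p.1 * p.2) ''
      ((Ua : Set P) ×ˢ (cj ta Ub : Set P)) := by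
    rintro y ⟨v, hv, z2, hz2, rfl⟩
    exact ⟨(v, z2), ⟨hv, hz2⟩, rfl⟩
  have f2p : ((Ua : Set P) ×ˢ (cj ta Ub : Set P)).Finite := fA.prod fAAB
  have f2 := f2p.image (fun p : P × P => tb * ta * p.1 * p.2)
  have c2 : (YP2 Ua Ub ta tb).ncard ≤ q ^ 2 := by
    calc (YP2 Ua Ub ta tb).ncard ≤ _ := Set.ncard_le_ncard h2 f2
      _ ≤ ((Ua : Set P) ×ˢ (cj ta Ub : Set P)).ncard := Set.ncard_image_le f2p
      _ = ((Ua : Set P)).ncard * ((cj ta Ub : Set P)).ncard := by rw [Set.ncard_prod]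
      _ ≤ q * q := Nat.mul_le_mul cA cAAB
      _ = q ^ 2 := by ring
  have h3 : YP3 Ua Ub ta tb ⊆ (fun p : P × P × P => tb * ta * tb * p.1 * p.2.1 * p.2.2) ''
      ((Ub : Set P) ×ˢ ((cj tb Ua : Set P) ×ˢ (cj ta Ub : Set P))) := by
    rintro y ⟨x, hx, z1, hz1, z2, hz2, rfl⟩
    exact ⟨(x, z1, z2), ⟨hx, hz1, hz2⟩, rfl⟩
  have f3p : ((Ub : Set P) ×ˢ ((cj tb Ua : Set P) ×ˢ (cj ta Ub : Set P))).Finite :=
    fB.prod (fAB.prod fAAB)
  have f3 := f3p.image (fun p : P × P × P => tb * ta * tb * p.1 * p.2.1 * p.2.2)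
  have c3 : (YP3 Ua Ub ta tb).ncard ≤ q ^ 3 := by
    calc (YP3 Ua Ub ta tb).ncard ≤ _ := Set.ncard_le_ncard h3 f3
      _ ≤ ((Ub : Set P) ×ˢ ((cj tb Ua : Set P) ×ˢ (cj ta Ub : Set P))).ncard :=
          Set.ncard_image_le f3p
      _ = ((Ub : Set P)).ncard * (((cj tb Ua : Set P)).ncard * ((cj ta Ub : Set P)).ncard) := by
          rw [Set.ncard_prod, Set.ncard_prod]
      _ ≤ q * (q * q) := Nat.mul_le_mul cB (Nat.mul_le_mul cAB cAAB)
      _ = q ^ 3 := by ring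
  have fY1 : (YP1 Ub tb).Finite := f1.subset h1
  have fY2 : (YP2 Ua Ub ta tb).Finite := f2.subset h2
  have fY3 : (YP3 Ua Ub ta tb).Finite := f3.subset h3
  have fYP : (YP Ua Ub ta tb).Finite :=
    (((Set.finite_singleton 1).union fY1).union fY2).union fY3
  have cYP : (YP Ua Ub ta tb).ncard ≤ q ^ 3 + q ^ 2 + q + 1 := by
    have e1 : (YP Ua Ub ta tb).ncard ≤
        (({1} : Set P) ∪ YP1 Ub tb ∪ YP2 Ua Ub ta tb).ncard + (YP3 Ua Ub ta tb).ncard :=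
      Set.ncard_union_le _ _
    have e2 : (({1} : Set P) ∪ YP1 Ub tb ∪ YP2 Ua Ub ta tb).ncard ≤
        (({1} : Set P) ∪ YP1 Ub tb).ncard + (YP2 Ua Ub ta tb).ncard :=
      Set.ncard_union_le _ _
    have e3 : (({1} : Set P) ∪ YP1 Ub tb).ncard ≤ ({1} : Set P).ncard + (YP1 Ub tb).ncard :=
      Set.ncard_union_le _ _
    rw [Set.ncard_singleton] at e3
    omega
  exact ⟨fBi.subset hYB, cYB, fQi.subset hYQ, cYQ, fYP, cYP⟩

end level3

end Cfsg.Agent.Lib.Helper93.Sp4
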